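import Cfsg.Agent.Lib.Lie.Assoc
import Cfsg.Agent.Lib.PGroup.MaxClass

/-!
# `p`-groups with an automorphism of order `p` having few fixed points (P. Hall, Alperin)
-/

set_option autoImplicit false

namespace Cfsg.Lib.Lie

open Subgroup Cfsg.Lib.BG
open scoped Cfsg.Lib.Transfer commutatorElement

section Abelian

variable {M : Type*} [AddCommGroup M] [Finite M]

theorem card_ker_comp_le (f g : M →+ M) : Nat.card (f.comp g).ker ≤ Nat.card f.ker * Nat.card g.ker := by
  have h : g.ker ≤ (f.comp g).ker := fun x (hx : g x = 0) => show f (g x) = 0 by rw [hx, map_zero]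
  rw [← AddSubgroup.card_mul_index (g.ker.addSubgroupOf (f.comp g).ker), mul_comm,
    Nat.card_congr (AddSubgroup.addSubgroupOfEquivOfLe h).toEquiv]
  refine Nat.mul_le_mul_right _ ((AddSubgroup.relIndex_ker ..).le.trans (AddSubgroup.card_le_of_le ?_))
  rintro _ ⟨x, hx, rfl⟩
  exact hx

theorem card_ker_pow_le (f : Module.End ℤ M) : ∀ k : ℕ, Nat.card {x // (f ^ k) x = 0} ≤ Nat.card {x // f x = 0} ^ k
  | 0 => by simp
  | k + 1 => by
    rw [pow_succ, pow_succ]
    exact (card_ker_comp_le (f ^ k).toAddMonoidHom f.toAddMonoidHom).trans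
      (Nat.mul_le_mul_right _ (card_ker_pow_le f k))

theorem card_ker_le {p : ℕ} (hp : p.Prime) {β : Module.End ℤ M} (h : β ^ p = 1) (e : ℕ) :
    Nat.card {x : M // p ^ e • x = 0} ≤ Nat.card {x // β x = x} ^ (p * e) := by
  have h1 := card_ker_pow_le (p : Module.End ℤ M) e
  have h2 := card_ker_pow_le (β - 1) p
  simp only [← Nat.cast_pow, Module.End.natCast_apply, LinearMap.sub_apply, Module.End.one_apply,
    sub_eq_zero] at h1 h2
  rw [pow_mul]
  refine h1.trans (Nat.pow_le_pow_left (le_trans (Nat.card_le_card_of_injective _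
    (Subtype.impEmbedding _ _ fun x hx => ?_).injective) h2) e)
  obtain ⟨r, hr⟩ := (Commute.one_right (β - 1)).exists_add_pow_prime_eq hp
  rw [sub_add_cancel, h, one_pow, add_right_comm, right_eq_add, mul_assoc, mul_assoc,
    (Nat.cast_commute p _).eq, add_eq_zero_iff_eq_neg] at hr
  rw [hr, LinearMap.neg_apply, Module.End.mul_apply, Module.End.natCast_apply, hx, map_zero, neg_zero]

end Abelian

variable {G : Type*} [Group G] [Finite G] {p : ℕ} [hp : Fact p.Prime]

theorem card_pow_eq_one_le {A : Type*} [CommGroup A] [Finite A] (β : A →* A) (h : ∀ a, β^[p] a = a) (e : ℕ) :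
    Nat.card {a : A // a ^ p ^ e = 1} ≤ Nat.card {a // β a = a} ^ (p * e) :=
  card_ker_le hp.1 (β := (MonoidHom.toAdditive β).toIntLinearMap) (LinearMap.ext fun a => by
    rw [Module.End.pow_apply]; exact h a.toMul) e

omit hp in
/-- An endomorphism has at most as many fixed points in a quotient as in the group. -/
theorem card_fix_quotient_le (α : G →* G) (N : Subgroup G) [N.Normal] (h : N ≤ N.comap α) :
    Nat.card {q // QuotientGroup.map N N α h q = q} ≤ Nat.card {g // α g = g} := by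
  let φ : G → G := fun g => g⁻¹ * α g
  have h1 : ∀ g, φ (Function.invFun φ (φ g)) = φ g := fun g => Function.invFun_eq ⟨g, rfl⟩
  refine Nat.le_of_mul_le_mul_left ?_ (Nat.card_pos (α := N))
  rw [← Nat.card_prod N {g // α g = g}]
  refine (QuotientGroup.card_preimage_mk N {q | QuotientGroup.map N N α h q = q}).ge.trans
    (Nat.card_le_card_of_injective (β := N × {g // α g = g}) (fun g => (⟨φ g, QuotientGroup.eq.1 g.2.symm⟩,
      ⟨g * (Function.invFun φ (φ g))⁻¹, ?_⟩)) fun a b e => ?_)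
  · rw [map_mul, map_inv, inv_mul_eq_iff_eq_mul.1 (h1 g)]
    simp [φ, mul_assoc]
  · simp only [Prod.mk.injEq, Subtype.mk.injEq] at e
    exact Subtype.ext (mul_right_cancel (e.2.trans (by rw [e.1])))

omit hp in
theorem exists_section (α : G →* G) {K N : Subgroup G} [(N.subgroupOf K).Normal] (hK : ∀ g ∈ K, α g ∈ K)
    (hN : ∀ g ∈ N, α g ∈ N) : ∃ β : K ⧸ N.subgroupOf K →* K ⧸ N.subgroupOf K,
      (∀ x : K, β x = (⟨α x, hK _ x.2⟩ : K)) ∧ Nat.card {q // β q = q} ≤ Nat.card {g // α g = g} :=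
  ⟨_, fun _ => rfl, (card_fix_quotient_le ((α.comp K.subtype).codRestrict K fun x => hK _ x.2) _ fun x => hN x).trans
    (Nat.card_le_card_of_injective (fun x => ⟨x.1, congrArg Subtype.val x.2⟩) fun _ _ e =>
      Subtype.ext (Subtype.ext (Subtype.mk.inj e)))⟩

theorem pow_mem_of_fix (α : G →* G) {K N : Subgroup G} (hn : K ≤ 𝐍(N)) (hK : ∀ g ∈ K, α g ∈ K)
    (hN : ∀ g ∈ N, α g ∈ N) (hP : IsPGroup p K) {n : ℕ} (h : Nat.card {g // α g = g} ≤ p ^ n) {y : G} (hy : y ∈ K)
    (hy' : y⁻¹ * α y ∈ N) : y ^ p ^ n ∈ N := by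
  haveI := normal_subgroupOf_of_le_normalizer hn
  obtain ⟨β, h1, h2⟩ := exists_section α hK hN
  obtain ⟨k, hk⟩ := ((hP.to_quotient (N.subgroupOf K)).to_subgroup (β.eqLocus (.id _))).exists_card_eq
  have := (β.eqLocus (.id _)).orderOf_dvd_natCard (x := (⟨y, hy⟩ : K))
    ((h1 _).trans (QuotientGroup.eq (a := (⟨y, hy⟩ : K)).2 hy').symm)
  exact (QuotientGroup.eq_one_iff (N := N.subgroupOf K) (⟨y, hy⟩ ^ p ^ n)).1 (orderOf_dvd_iff_pow_eq_one.1
    (this.trans (hk ▸ pow_dvd_pow p ((Nat.pow_le_pow_iff_right hp.1.one_lt).1 (hk.ge.trans (h2.trans h))))))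

open scoped IsMulCommutative in
theorem relIndex_le_of_fix (α : G →* G) {K N : Subgroup G} (hc : ⁅K, K⁆ ≤ N) (hK : ∀ g ∈ K, α g ∈ K)
    (hN : ∀ g ∈ N, α g ∈ N) (hα : ∀ g ∈ K, α^[p] g = g) {e : ℕ} (he : ∀ g ∈ K, g ^ p ^ e ∈ N) :
    N.relIndex K ≤ Nat.card {g // α g = g} ^ (p * e) := by
  have hc' : _root_.commutator K ≤ N.subgroupOf K := commutator_le.2 fun a _ b _ =>
    hc (commutator_mem_commutator a.2 b.2)
  haveI : (N.subgroupOf K).Normal := Normal.of_commutator_le _ hc'
  haveI : IsMulCommutative (K ⧸ N.subgroupOf K) := Normal.quotient_commutative_iff_commutator_le.2 hc'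
  obtain ⟨β, h1, h2⟩ := exists_section α hK hN
  have h3 : ∀ (k : ℕ) (x : K), ∃ y : K, y = α^[k] x ∧ β^[k] x = y := fun k x => by
    induction k with
    | zero => exact ⟨x, rfl, rfl⟩
    | succ k ih =>
      obtain ⟨y, h, h'⟩ := ih
      exact ⟨⟨α y, hK _ y.2⟩, by rw [Function.iterate_succ_apply', ← h], by rw [Function.iterate_succ_apply', h', h1]⟩
  refine le_trans (le_of_eq ?_) ((card_pow_eq_one_le β (fun a => ?_) e).trans (Nat.pow_le_pow_left h2 _))
  · exact (Nat.card_congr (Equiv.subtypeUnivEquiv fun a => QuotientGroup.induction_on a fun x =>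
      (QuotientGroup.eq_one_iff (x ^ p ^ e)).2 (he x x.2))).symm
  · obtain ⟨x, rfl⟩ := QuotientGroup.mk_surjective a
    obtain ⟨y, h, h'⟩ := h3 p x
    rw [h', Subtype.ext (h.trans (hα x x.2))]

omit [Finite G] hp in
theorem comm_lcs_le_iter {P : Subgroup G} (k : ℕ) : ∀ A : Subgroup G, A ≤ P → P ≤ 𝐍(A) →
    ⁅A, P.lowerCentralSeries k⁆ ≤ iterCommutator A P (k + 1) := by
  induction k with
  | zero => exact fun _ _ _ => le_rfl
  | succ k ih =>
    intro A hA hn
    have h := PGroup.le_normalizer_iterCommutator hn le_normalizer (k + 1 + 1)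
    rw [commutator_comm, Subgroup.lowerCentralSeries_succ]
    refine Core.three_subgroups ((P.lowerCentralSeries_le_self k).trans h) h (hA.trans h) ?_ ?_
    · rw [commutator_comm P, add_comm (k + 1), PGroup.iterCommutator_add]
      exact ih _ ((comm_le_left hn).trans hA) (norm_comm hn le_normalizer)
    · exact commutator_mono (ih A hA hn) le_rfl

/-- P. Hall's lemma. -/
theorem hall_card_le {P A N : Subgroup G} (hP : IsPGroup p P) (hA : A ≤ P) (hn : P ≤ 𝐍(A)) {k : ℕ}
    (hN : N ≤ P.lowerCentralSeries k) (h : ⁅A, N⁆ ≠ ⊥) : p ^ (k + 1) * Nat.card ↥⁅A, N⁆ ≤ Nat.card A := by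
  have h1 := (commutator_mono le_rfl hN).trans (comm_lcs_le_iter k A hA hn)
  exact (Nat.mul_le_mul_left _ (card_le_of_le h1)).trans (PGroup.pow_mul_card_iterCommutator_succ_le (hP.to_le hA) hP hn
    fun e => h (eq_bot_iff.2 (h1.trans ((PGroup.iterCommutator_antitone hn k.le_succ).trans e.le))))

omit [Finite G] hp in
theorem map_mem_lcs (α : G →* G) {K : Subgroup G} (hK : ∀ g ∈ K, α g ∈ K) (i : ℕ) :
    ∀ g ∈ K.lowerCentralSeries i, α g ∈ K.lowerCentralSeries i := fun _ hg =>
  lowerCentralSeries_mono i (map_le_iff_le_comap.2 hK) ((map_lowerCentralSeries K α i).le (mem_map_of_mem α hg))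

theorem relIndex_lcs_le (α : G →* G) {K : Subgroup G} (hK : ∀ g ∈ K, α g ∈ K) (hα : ∀ g ∈ K, α^[p] g = g)
    (hP : IsPGroup p K) {n : ℕ} (h : Nat.card {g // α g = g} ≤ p ^ n) {c : ℕ} (hc : IsBound p c) :
    (K.lowerCentralSeries (c + 1)).relIndex (K.lowerCentralSeries c) ≤ p ^ (n * (p * (n + (c + 2)))) := by
  rw [pow_mul]
  refine (relIndex_le_of_fix α (N := K.lowerCentralSeries (c + 1)) (commutator_mono le_rfl (K.lowerCentralSeries_le_self c)) (map_mem_lcs α hK c)
    (map_mem_lcs α hK _) (fun g hg => hα g (K.lowerCentralSeries_le_self c hg)) fun g hg => ?_).trans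
    (Nat.pow_le_pow_left h _)
  rw [pow_add]
  refine pow_mem_lcs_succ α hK hα (fun i g hg => ?_) hc hg
  have hi := K.lowerCentralSeries_le_self i
  have h1 : ((List.range p).map (α^[·] g)).prod ∈ K.lowerCentralSeries i := Subgroup.list_prod_mem _ fun x hx => by
    obtain ⟨k, -, rfl⟩ := List.mem_map.1 hx
    exact Function.Iterate.rec _ hg (map_mem_lcs α hK i) k
  refine pow_mem_of_fix α (hi.trans (K.self_le_normalizer_lowerCentralSeries _)) (map_mem_lcs α hK i)
    (map_mem_lcs α hK _) (hP.to_le hi) h h1 ?_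
  have h2 : g * α ((List.range p).map (α^[·] g)).prod = ((List.range p).map (α^[·] g)).prod * g := by
    have := List.prod_range_succ (α^[·] g) p
    rw [hα g (hi hg), List.prod_range_succ'] at this
    rw [← this, map_list_prod, List.map_map]
    simp [Function.comp_def, Function.iterate_succ_apply']
  rw [eq_inv_mul_iff_mul_eq.2 h2]
  simpa [commutatorElement_def, mul_assoc] using commutator_mem_commutator (inv_mem h1) (inv_mem (hi hg))

/-- Alperin's theorem for `p`-groups. -/
theorem alperin_lcs (α : G →* G) {P : Subgroup G} (hK : ∀ g ∈ P, α g ∈ P) (hα : ∀ g ∈ P, α^[p] g = g)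
    (hP : IsPGroup p P) {n : ℕ} (h : Nat.card {g // α g = g} ≤ p ^ n) {c : ℕ} (hc : IsBound p c) :
    (P.lowerCentralSeries (n * (p * (n + (c + 2))))).lowerCentralSeries (c + 1) = ⊥ := by
  by_contra h0
  set N := P.lowerCentralSeries (n * (p * (n + (c + 2))))
  have hN : N ≤ P := P.lowerCentralSeries_le_self _
  have hn : ∀ i, P ≤ 𝐍(N.lowerCentralSeries i) := fun i => by
    induction i with
    | zero => exact P.self_le_normalizer_lowerCentralSeries _
    | succ i ih => exact norm_comm ih (P.self_le_normalizer_lowerCentralSeries _)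
  have h1 := hall_card_le hP ((N.lowerCentralSeries_le_self c).trans hN) (hn c) le_rfl h0
  have h2 := relIndex_lcs_le α (map_mem_lcs α hK _) (fun g hg => hα g (hN hg)) (hP.to_le hN) h hc
  rw [← card_mul_relIndex (N.lowerCentralSeries_antitone c.le_succ), mul_comm] at h1
  exact (Nat.pow_lt_pow_right hp.1.one_lt (Nat.lt_succ_self _)).not_ge
    ((Nat.le_of_mul_le_mul_left h1 Nat.card_pos).trans h2)

end Cfsg.Lib.Lie
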