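import Cfsg.Agent.Lib.Lie.Shalev
import Cfsg.Agent.Lib.Lie.Assoc
import Cfsg.Agent.Lib.BG.Basic
import Cfsg.Agent.Lib.PGroup.MaxClass
import Cfsg.Agent.Lib.Coprime.Generation

/-!
# Families of special subgroups under a coprime elementary abelian action (Acciarri–Shumyatsky)
-/

set_option autoImplicit false

namespace Cfsg.Lib.Lie.Sh

open Subgroup Cfsg.Lib Cfsg.Lib.BG
open scoped commutatorElement Pointwise

variable {G : Type*} [Group G] {p : ℕ} {A N X Z H K : Subgroup G}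

/-- elements normalising `Z` and centralising `H` modulo `Z` -/
def cmod (Z H : Subgroup G) : Subgroup G where
  carrier := {x | x ∈ 𝐍(Z) ∧ ∀ h ∈ H, ⁅x, h⁆ ∈ Z}
  one_mem' := ⟨one_mem _, fun h _ => by simp⟩
  mul_mem' := fun {x y} hx hy => ⟨mul_mem hx.1 hy.1, fun h hh => by
    have e : ⁅x * y, h⁆ = x * ⁅y, h⁆ * x⁻¹ * ⁅x, h⁆ := by
      simp only [commutatorElement_def]; group
    rw [e]; exact mul_mem (conj_mem_of_norm hx.1 (hy.2 h hh)) (hx.2 h hh)⟩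
  inv_mem' := fun {x} hx => ⟨inv_mem hx.1, fun h hh => by
    have e : ⁅x⁻¹, h⁆ = x⁻¹ * (⁅x, h⁆)⁻¹ * x := by simp only [commutatorElement_def]; group
    rw [e]; exact conj_mem_of_norm' hx.1 (inv_mem (hx.2 h hh))⟩

theorem le_cmod (h1 : K ≤ 𝐍(Z)) (h2 : ⁅K, H⁆ ≤ Z) : K ≤ cmod Z H :=
  fun _ hx => ⟨h1 hx, fun _ hh => h2 (commutator_mem_commutator hx hh)⟩

theorem comm_le_of_cmod (h : K ≤ cmod Z H) : ⁅K, H⁆ ≤ Z :=
  commutator_le.2 fun _ hx _ hh => (h hx).2 _ hh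

theorem norm_of_gen {a : G} [Finite G] (h : Z ≤ Z.comap (MulAut.conj a).toMonoidHom) : a ∈ 𝐍(Z) :=
  Subgroup.mem_normalizer_fintype fun _ hz => h hz

/-- hyperplanes -/
def Hy (p : ℕ) (A B : Subgroup G) : Prop := B ≤ A ∧ B.relIndex A = p

/-- the next generation of special subgroups -/
def nx (p : ℕ) (A : Subgroup G) (S T : Set (Subgroup G)) : Set (Subgroup G) :=
  {Z | ∃ K ∈ S, ∃ K' ∈ T, ∃ B, Hy p A B ∧ Z = ⁅K, K'⁆ ⊓ 𝐂(B)}

variable [Finite G] [hp : Fact p.Prime]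

theorem gen_le (hA : IsElementaryAbelian p A) (hne : A ≠ ⊥)
    (hc : (Nat.card A).Coprime (Nat.card X)) (hK : K ≤ X) (hn : A ≤ 𝐍(K))
    (h : ∀ B, Hy p A B → K ⊓ 𝐂(B) ≤ Z) : K ≤ Z :=
  Coprime.le_of_forall_hyperplane' hA hne hn (coprime_mono hc le_rfl hK) fun B h1 h2 => h B ⟨h1, h2⟩

theorem comm_sSup_le (hA : IsElementaryAbelian p A) (hne : A ≠ ⊥)
    (hc : (Nat.card A).Coprime (Nat.card X)) {S T : Set (Subgroup G)}
    (hS : ∀ K ∈ S, A ≤ 𝐍(K) ∧ K ≤ X) (hT : ∀ K ∈ T, A ≤ 𝐍(K) ∧ K ≤ X) (hle : sSup S ≤ sSup T)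
    (clo : ∀ K ∈ S, ∀ K' ∈ T, ∀ B, Hy p A B → ∃ K1 ∈ S, ⁅K, K'⁆ ⊓ 𝐂(B) ≤ K1) :
    ⁅sSup S, sSup T⁆ ≤ sSup (nx p A S T) := by
  have h1 : ∀ K ∈ S, ∀ K' ∈ T, ⁅K, K'⁆ ≤ sSup (nx p A S T) := fun K hK K' hK' =>
    gen_le hA hne hc (comm_le_of_le (hS K hK).2 (hT K' hK').2) (norm_comm (hS K hK).1 (hT K' hK').1)
      fun B hB => le_sSup ⟨K, hK, K', hK', B, hB, rfl⟩
  have h2 : sSup T ≤ 𝐍(sSup (nx p A S T)) := by
    refine sSup_le fun K' hK' a ha => norm_of_gen (sSup_le ?_)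
    rintro _ ⟨K, hK, K2, hK2, B, hB, rfl⟩ z hz
    obtain ⟨K1, hK1, h⟩ := clo K hK K2 hK2 B hB
    have e : a * z * a⁻¹ = (⁅z, a⁆)⁻¹ * z := by simp only [commutatorElement_def]; group
    change a * z * a⁻¹ ∈ sSup (nx p A S T)
    rw [e]
    exact mul_mem (inv_mem (h1 K1 hK1 K' hK' (commutator_mem_commutator (h hz) ha)))
      (le_sSup (s := nx p A S T) ⟨K, hK, K2, hK2, B, hB, rfl⟩ hz)
  rw [commutator_comm]
  refine comm_le_of_cmod (sSup_le fun K' hK' => le_cmod ((le_sSup hK').trans h2) ?_)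
  rw [commutator_comm]
  exact comm_le_of_cmod (sSup_le fun K hK =>
    le_cmod ((le_sSup hK).trans (hle.trans h2)) (h1 K hK K' hK'))

/-- a family of special subgroups -/
structure Fam (p : ℕ) (A N : Subgroup G) (S : Set (Subgroup G)) (u : ℕ) : Prop where
  elem : IsElementaryAbelian p A
  ne : A ≠ ⊥
  cop : (Nat.card A).Coprime (Nat.card N)
  sup : sSup S = N
  inv : ∀ H ∈ S, A ≤ 𝐍(H)
  clo : ∀ H ∈ S, ∀ H' ∈ S, ∀ B, Hy p A B → ∃ K ∈ S, ⁅H, H'⁆ ⊓ 𝐂(B) ≤ K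
  nil : ∀ H ∈ S, ∀ B, Hy p A B → iterCommutator (N ⊓ 𝐂(B)) H u = ⊥

variable {S : Set (Subgroup G)} {u : ℕ}

omit [Finite G] hp in
theorem Fam.le (h : Fam p A N S u) (hH : H ∈ S) : H ≤ N := h.sup ▸ le_sSup hH

omit hp in
theorem Fam.norm (h : Fam p A N S u) : A ≤ 𝐍(N) := by
  intro a ha
  refine norm_of_gen ?_
  conv_lhs => rw [← h.sup]
  exact sSup_le fun H hH z hz => h.le hH (conj_mem_of_norm (h.inv H hH ha) hz)

theorem Fam.der (h : Fam p A N S u) : Fam p A ⁅N, N⁆ ((· ⊓ ⁅N, N⁆) '' S) u where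
  elem := h.elem
  ne := h.ne
  cop := coprime_mono h.cop le_rfl (BG.der_le N)
  sup := by
    refine le_antisymm (sSup_le ?_) ?_
    · rintro _ ⟨H, -, rfl⟩; exact inf_le_right
    have := comm_sSup_le h.elem h.ne h.cop (fun K hK => ⟨h.inv K hK, h.le hK⟩)
      (fun K hK => ⟨h.inv K hK, h.le hK⟩) le_rfl h.clo
    rw [h.sup] at this
    refine this.trans (sSup_le ?_)
    rintro _ ⟨K, hK, K', hK', B, hB, rfl⟩
    obtain ⟨K1, hK1, h1⟩ := h.clo K hK K' hK' B hB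
    exact le_sSup_of_le ⟨K1, hK1, rfl⟩
      (le_inf h1 (inf_le_left.trans (comm_le_der (h.le hK) (h.le hK'))))
  inv := by rintro _ ⟨H, hH, rfl⟩; exact norm_inf (h.inv H hH) (norm_der h.norm)
  clo := by
    rintro _ ⟨H, hH, rfl⟩ _ ⟨H', hH', rfl⟩ B hB
    obtain ⟨K1, hK1, h1⟩ := h.clo H hH H' hH' B hB
    exact ⟨_, ⟨K1, hK1, rfl⟩, le_inf ((inf_le_inf_right _ (commutator_mono inf_le_left
      inf_le_left)).trans h1) (inf_le_left.trans (comm_le_der (inf_le_left.trans (h.le hH))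
        (inf_le_left.trans (h.le hH'))))⟩
  nil := by
    rintro _ ⟨H, hH, rfl⟩ B hB
    exact eq_bot_mono (h.nil H hH B hB)
      (PGroup.iterCommutator_mono (inf_le_inf_right _ (BG.der_le N)) inf_le_left u)

theorem Fam.comm_lt (h : Fam p A N S u) {R M : Subgroup G} (hR : R ≤ N) (hRA : A ≤ 𝐍(R))
    (hRN : N ≤ 𝐍(R)) (hM : M < R) (hMN : N ≤ 𝐍(M)) (hRR : ⁅R, R⁆ ≤ M) (hH : H ∈ S) :
    ¬ R ≤ ⁅R, H⁆ ⊔ M := by
  intro hle
  let T : ℕ → Subgroup G := fun r =>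
    (⨆ B : {B // Hy p A B}, iterCommutator (N ⊓ 𝐂(B.1)) H r ⊓ R) ⊔ M
  have hT : ∀ r, T r ≤ R := fun r => sup_le (iSup_le fun _ => inf_le_right) hM.le
  have hTn : ∀ r, R ≤ 𝐍(T r) := fun r => norm_of_comm_le_of_le (hRR.trans le_sup_right) (hT r)
  have key : ∀ r, R ≤ T r := by
    intro r
    induction r with
    | zero =>
      refine gen_le h.elem h.ne h.cop hR hRA fun B hB => le_sup_of_le_left
        (le_iSup_of_le ⟨B, hB⟩ (le_inf (inf_le_inf_right _ hR) inf_le_left))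
    | succ r ih =>
      refine hle.trans (sup_le (comm_le_of_cmod (ih.trans (sup_le (iSup_le fun B => ?_) ?_)))
        le_sup_right)
      · refine le_cmod (inf_le_right.trans (hTn _)) (le_sup_of_le_left (le_iSup_of_le B
          (le_inf (commutator_mono inf_le_left le_rfl) ((commutator_mono inf_le_right le_rfl).trans
            (comm_le_left ((h.le hH).trans hRN))))))
      · exact le_cmod (hM.le.trans (hTn _))
          (le_sup_of_le_right (comm_le_left ((h.le hH).trans hMN)))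
  refine hM.not_ge ((key u).trans (sup_le (iSup_le fun B => ?_) le_rfl))
  rw [h.nil H hH B.1 B.2, bot_inf_eq]; exact bot_le

theorem norm_comm_sup {R M : Subgroup G} (hH : H ≤ N) (hRN : N ≤ 𝐍(R)) (hMN : N ≤ 𝐍(M))
    (hW : ⁅R, ⁅N, N⁆⁆ ≤ M) : N ≤ 𝐍(⁅R, H⁆ ⊔ M) := by
  intro n hn
  refine norm_of_gen (sup_le (commutator_le.2 fun r hr x hx => ?_) fun m hm =>
    mem_sup_right (conj_mem_of_norm (hMN hn) hm))
  have hr' := conj_mem_of_norm (hRN hn) hr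
  have hz : ⁅n, x⁆ ∈ ⁅N, N⁆ := commutator_mem_commutator hn (hH hx)
  have hy : ⁅n * r * n⁻¹, x⁆ ∈ ⁅R, H⁆ := commutator_mem_commutator hr' hx
  have e : n * ⁅r, x⁆ * n⁻¹ = ⁅n * r * n⁻¹, ⁅n, x⁆⁆ * (⁅⁅n * r * n⁻¹, x⁆, ⁅n, x⁆⁆)⁻¹ *
      ⁅n * r * n⁻¹, x⁆ := by
    simp only [commutatorElement_def]; group
  change n * ⁅r, x⁆ * n⁻¹ ∈ ⁅R, H⁆ ⊔ M
  rw [e]
  exact mul_mem (mem_sup_right (mul_mem (hW (commutator_mem_commutator hr' hz))
    (inv_mem (hW (commutator_mem_commutator (comm_le_left (hH.trans hRN) hy) hz)))))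
    (mem_sup_left hy)

omit hp in
theorem norm_lcs (h : A ≤ 𝐍(N)) : ∀ i, A ≤ 𝐍(N.lowerCentralSeries i)
  | 0 => h
  | i + 1 => norm_comm (norm_lcs h i) h

theorem Fam.nilpotent (h : Fam p A N S u) (hs : Group.IsSolvable N) : Group.IsNilpotent N := by
  induction' hc : Nat.card N using Nat.strong_induction_on with c IH generalizing N S
  by_cases h0 : N = ⊥
  · rw [h0]; infer_instance
  have hlt : ⁅N, N⁆ < N := by
    haveI := hs
    haveI := (nontrivial_iff_ne_bot N).2 h0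
    have := Group.IsSolvable.commutator_lt_top_of_nontrivial N
    rw [← map_lt_map_iff_of_injective N.subtype_injective, map_subtype_commutator,
      ← MonoidHom.range_eq_map, range_subtype] at this
    exact this
  have hN' : Group.IsNilpotent ↥(⁅N, N⁆) := IH _ (hc ▸ (lt_of_le_of_ne (card_le_of_le hlt.le)
    fun e => hlt.ne (eq_of_le_of_card_le hlt.le e.ge))) h.der
    (sol_of_le hs (BG.der_le N)) rfl
  set n := Function.argmin fun n => Nat.card (N.lowerCentralSeries n) with hn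
  have e : N.lowerCentralSeries (n + 1) = N.lowerCentralSeries n :=
    eq_of_le_of_card_le (N.lowerCentralSeries_antitone (Nat.le_succ n))
      (Function.argmin_le (fun n => Nat.card (N.lowerCentralSeries n)) (n + 1))
  set R := N.lowerCentralSeries n with hRd
  by_cases hR0 : R = ⊥
  · exact isNilpotent_of_lowerCentralSeries_eq_bot hR0
  exfalso
  have hRR : ⁅R, N⁆ = R := e
  have hRN : N ≤ 𝐍(R) := norm_lcs (le_norm N) n
  have hR : R ≤ N := lowerCentralSeries_le_self N n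
  have hR' : R ≤ ⁅N, N⁆ := hRR ▸ commutator_mono hR le_rfl
  have hW := PGroup.commutator_lt_of_nilpotent hR' ((BG.der_le N).trans hRN) hR0
  obtain ⟨M, -, hM⟩ := exists_maximal_ge_of_wellFoundedGT
    (fun M => ⁅R, ⁅N, N⁆⁆ ≤ M ∧ M < R ∧ N ≤ 𝐍(M)) ⁅R, ⁅N, N⁆⁆
    ⟨le_rfl, hW, norm_comm hRN (norm_der (le_norm N))⟩
  obtain ⟨⟨h1, h2, h3⟩, h4⟩ := hM
  have h5 : ∀ H ∈ S, ⁅R, H⁆ ≤ M := by
    intro H hH
    have h6 := h.comm_lt hR (norm_lcs h.norm n) hRN h2 h3 ((commutator_mono le_rfl hR').trans h1) hH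
    have h7 : ⁅R, H⁆ ⊔ M ≤ R := sup_le (comm_le_left ((h.le hH).trans hRN)) h2.le
    exact le_sup_left.trans (h4 ⟨h1.trans le_sup_right, lt_of_le_of_ne h7 fun e => h6 e.ge,
      norm_comm_sup (h.le hH) hRN h3 h1⟩ le_sup_right)
  refine h2.not_ge ?_
  rw [← hRR, commutator_comm]
  refine comm_le_of_cmod ?_
  conv_lhs => rw [← h.sup]
  exact sSup_le fun H hH => le_cmod ((h.le hH).trans h3) (commutator_comm R H ▸ h5 H hH)

section LieRing

variable {Sr : Ser G}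

/-- the additive subgroup attached to a family of subgroups -/
noncomputable def lam (Sr : Ser G) (K : ℕ → Subgroup G) : AddSubgroup Sr.Gr :=
  .closure {x | ∃ i, ∃ g ∈ K i, Sr.sym i g = x}

/-- preimage of an additive subgroup in a layer -/
def pre (Sr : Ser G) (Z : AddSubgroup Sr.Gr) (i : ℕ) : Subgroup G where
  carrier := {g | g ∈ Sr.H i ∧ Sr.sym i g ∈ Z}
  one_mem' := ⟨one_mem _, by rw [Ser.sym_one]; exact zero_mem _⟩
  mul_mem' := fun hx hy => ⟨mul_mem hx.1 hy.1, by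
    rw [Ser.sym_mul hx.1 hy.1]; exact add_mem hx.2 hy.2⟩
  inv_mem' := fun hx => ⟨inv_mem hx.1, by rw [Ser.sym_inv hx.1]; exact neg_mem hx.2⟩

/-- convolution of families -/
def cv (K K' : ℕ → Subgroup G) (r : ℕ) : Subgroup G :=
  ⨆ (i : ℕ) (j : ℕ) (_ : i + j + 1 = r), ⁅K i, K' j⁆

variable {E E' F F' : ℕ → Subgroup G} {W : AddSubgroup Sr.Gr}

omit [Finite G] in
theorem lam_le (h : ∀ i, E i ≤ pre Sr W i) : lam Sr E ≤ W :=
  (AddSubgroup.closure_le _).2 fun _ ⟨i, _, hg, e⟩ => e ▸ (h i hg).2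

omit [Finite G] in
theorem mem_lam {i : ℕ} {g : G} (hg : g ∈ E i) : Sr.sym i g ∈ lam Sr E :=
  AddSubgroup.subset_closure ⟨i, g, hg, rfl⟩

omit [Finite G] in
theorem le_pre (hE : E ≤ Sr.H) (h : lam Sr E ≤ W) (i : ℕ) : E i ≤ pre Sr W i :=
  fun _ hg => ⟨hE i hg, h (mem_lam hg)⟩

omit [Finite G] in
theorem lam_mono (h : E ≤ E') : lam Sr E ≤ lam Sr E' :=
  AddSubgroup.closure_mono fun _ ⟨i, g, hg, e⟩ => ⟨i, g, h i hg, e⟩

omit [Finite G] in
theorem lam_bot (h : ∀ i, E i = ⊥) : lam Sr E = ⊥ :=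
  eq_bot_iff.2 (lam_le fun i => by rw [h i]; exact bot_le)

omit [Finite G] in
theorem lam_top : lam Sr Sr.H = ⊤ := eq_top_iff.2 fun x _ => by
  induction x using Ser.induction with
  | h0 => exact zero_mem _
  | h1 i g hg => exact mem_lam hg
  | h2 _ _ h h' => exact add_mem (h trivial) (h' trivial)

omit [Finite G] in
theorem cv_le {T : ℕ → Subgroup G} (h : ∀ i j, ⁅E i, F j⁆ ≤ T (i + j + 1)) : cv E F ≤ T :=
  fun _ => iSup_le fun i => iSup_le fun j => iSup_le fun e => e ▸ h i j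

omit [Finite G] in
theorem le_cv (i j : ℕ) : ⁅E i, F j⁆ ≤ cv E F (i + j + 1) :=
  le_iSup_of_le i (le_iSup_of_le j (le_iSup_of_le rfl le_rfl))

omit [Finite G] in
theorem cv_mono (h : E ≤ E') (h' : F ≤ F') : cv E F ≤ cv E' F' :=
  cv_le fun i j => (commutator_mono (h i) (h' j)).trans (le_cv i j)

omit [Finite G] in
theorem cv_H : cv Sr.H Sr.H ≤ Sr.H := cv_le fun _ _ => commutator_le.2 fun _ hx _ hy => Sr.comm hx hy

omit [Finite G] in
theorem bk_lam (hE : E ≤ Sr.H) (hF : F ≤ Sr.H) : bk (lam Sr E) (lam Sr F) ≤ lam Sr (cv E F) := by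
  refine bk_le.2 fun a ha b hb => ?_
  refine (AddSubgroup.closure_le ((lam Sr (cv E F)).comap (rb b))).2 ?_ ha
  rintro _ ⟨i, x, hx, rfl⟩
  refine (AddSubgroup.closure_le ((lam Sr (cv E F)).comap (lb (Sr.sym i x)))).2 ?_ hb
  rintro _ ⟨j, y, hy, rfl⟩
  change ⁅Sr.sym i x, Sr.sym j y⁆ ∈ lam Sr (cv E F)
  rw [Ser.lie_sym (hE i hx) (hF j hy)]
  exact mem_lam (le_cv i j (commutator_mem_commutator hx hy))

omit [Finite G] in
theorem lam_cv (hE : E ≤ Sr.H) (hF : F ≤ Sr.H) : lam Sr (cv E F) ≤ bk (lam Sr E) (lam Sr F) :=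
  lam_le (cv_le fun i j => commutator_le.2 fun x hx y hy => ⟨Sr.comm (hE i hx) (hF j hy), by
    rw [← Ser.lie_sym (hE i hx) (hF j hy)]; exact mem_bk (mem_lam hx) (mem_lam hy)⟩)

omit [Finite G] in
theorem it_lam (X H : Subgroup G) : ∀ n, it (lam Sr fun i => Sr.H i ⊓ X) (lam Sr fun i => Sr.H i ⊓ H) n
    ≤ lam Sr fun i => Sr.H i ⊓ iterCommutator X H n
  | 0 => le_rfl
  | n + 1 => by
    rw [it_succ]
    refine (bk_mono (it_lam X H n) le_rfl).trans ((bk_lam (fun _ => inf_le_left)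
      fun _ => inf_le_left).trans (lam_mono (cv_le fun i j => le_inf ?_ ?_)))
    · exact (commutator_mono inf_le_left inf_le_left).trans ((le_cv i j).trans (cv_H _))
    · exact commutator_mono inf_le_right inf_le_right

/-- the sum of the pieces -/
noncomputable def pc (Sr : Ser G) (S : Set (Subgroup G)) (E : ℕ → Subgroup G) : AddSubgroup Sr.Gr :=
  ⨆ H : S, lam Sr fun i => E i ⊓ H.1

theorem Fam.bk_pc (h : Fam p A N S u) (hE : E ≤ Sr.H) (hE' : E' ≤ Sr.H) (hA : ∀ i, A ≤ 𝐍(E' i))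
    (hc : cv E E ≤ E') : bk (pc Sr S E) (pc Sr S E) ≤ pc Sr S E' := by
  refine bk_iSup_left fun H => bk_iSup_right fun H' => (bk_lam
    (fun i => inf_le_left.trans (hE i)) fun i => inf_le_left.trans (hE i)).trans (lam_le fun r => ?_)
  have h1 : cv (fun i => E i ⊓ H.1) (fun i => E i ⊓ H'.1) ≤ fun r => E' r ⊓ ⁅H.1, H'.1⁆ :=
    cv_le fun i j => le_inf ((commutator_mono inf_le_left inf_le_left).trans
      ((le_cv i j).trans (hc _))) (commutator_mono inf_le_right inf_le_right)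
  refine (h1 r).trans (gen_le h.elem h.ne h.cop
    (inf_le_right.trans (comm_le_of_le (h.le H.2) (h.le H'.2)))
    (norm_inf (hA r) (norm_comm (h.inv _ H.2) (h.inv _ H'.2))) fun B hB => ?_)
  obtain ⟨K, hK, h2⟩ := h.clo _ H.2 _ H'.2 B hB
  refine le_trans ?_ (le_pre (E := fun i => E' i ⊓ K) (fun i => inf_le_left.trans (hE' i))
    (le_iSup (fun H : S => lam Sr fun i => E' i ⊓ H.1) ⟨K, hK⟩) r)
  rw [inf_assoc]
  exact inf_le_inf_left _ h2

theorem Fam.it_piece (h : Fam p A N S u) (hH : H ∈ S) :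
    it ⊤ (lam (lcsSer N) fun i => (lcsSer N).H i ⊓ H) u = ⊥ := by
  have h1 : (⊤ : AddSubgroup (lcsSer N).Gr) ≤
      ⨆ B : {B // Hy p A B}, lam (lcsSer N) fun i => (lcsSer N).H i ⊓ (N ⊓ 𝐂(B.1)) := by
    rw [← lam_top]
    refine lam_le fun r => gen_le h.elem h.ne h.cop (lowerCentralSeries_le_self N r)
      (norm_lcs h.norm r) fun B hB => le_trans ?_ (le_pre
        (E := fun i => (lcsSer N).H i ⊓ (N ⊓ 𝐂(B))) (fun i => inf_le_left)
        (le_iSup (fun B : {B // Hy p A B} => lam (lcsSer N)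
          fun i => (lcsSer N).H i ⊓ (N ⊓ 𝐂(B.1))) ⟨B, hB⟩) r)
    exact le_inf inf_le_left (inf_le_inf_right _ (lowerCentralSeries_le_self N r))
  refine eq_bot_iff.2 ((it_mono h1 le_rfl u).trans ((it_iSup _ u).trans (iSup_le fun B =>
    (it_lam _ _ u).trans (lam_bot fun i => ?_).le)))
  rw [h.nil H hH B.1 B.2, inf_bot_eq]

theorem Fam.it_pc (h : Fam p A N S u) {t : ℕ} (ht : S.ncard ≤ t) {s : ℕ}
    {E : ℕ → ℕ → Subgroup G} (h1 : ∀ i, E i ≤ (lcsSer N).H) (h2 : ∀ i r, A ≤ 𝐍(E i r))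
    (h3 : ∀ i, cv (E i) (E i) ≤ E (i + 1)) (h4 : ∀ i, E (i + 1) ≤ E i)
    (h5 : lam (lcsSer N) (E s) = ⊥) : it ⊤ (pc (lcsSer N) S (E 0)) ((t * u + 1) ^ s) = ⊥ := by
  classical
  refine it_eq_bot_of_levels s (fun i => pc (lcsSer N) S (E i)) (fun i => ?_)
    (fun i => h.bk_pc (h1 i) (h1 _) (h2 _) (h3 i))
    (fun i => iSup_mono fun H => lam_mono fun r => inf_le_inf_right _ (h4 i r))
    (eq_bot_iff.2 (iSup_le fun H => (lam_mono fun r => inf_le_left).trans h5.le))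
  refine ⟨(Set.toFinite S).toFinset.image fun H => lam (lcsSer N) fun r => E i r ⊓ H,
    Finset.card_image_le.trans ((Set.ncard_eq_toFinset_card S).symm.le.trans ht),
    iSup_le fun H => Finset.le_sup (f := id) (Finset.mem_image_of_mem _ (by simp)), ?_⟩
  intro y hy
  obtain ⟨H, hH, rfl⟩ := Finset.mem_image.1 hy
  rw [Set.Finite.mem_toFinset] at hH
  exact ⟨le_iSup (fun H : S => lam (lcsSer N) fun r => E i r ⊓ H.1) ⟨H, hH⟩, eq_bot_iff.2
    ((it_mono le_rfl (lam_mono fun r => inf_le_inf_right _ (h1 i r)) u).trans (h.it_piece hH).le)⟩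

theorem Fam.pc_top (h : Fam p A N S u) : pc (lcsSer N) S (lcsSer N).H = ⊤ := by
  rw [eq_top_iff, ← lam_top]
  have h0 : N ≤ pre (lcsSer N) (pc (lcsSer N) S (lcsSer N).H) 0 := by
    conv_lhs => rw [← h.sup]
    exact sSup_le fun H hH => le_trans (le_inf (h.le hH) le_rfl)
      (le_pre (E := fun i => (lcsSer N).H i ⊓ H) (fun i => inf_le_left)
        (le_iSup (fun H : S => lam (lcsSer N) fun i => (lcsSer N).H i ⊓ H.1) ⟨H, hH⟩) 0)
  refine lam_le fun r => ?_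
  induction r with
  | zero => exact h0
  | succ r ih =>
    refine commutator_le.2 fun x hx y hy => ⟨commutator_mem_commutator hx hy, ?_⟩
    rw [← Ser.lie_sym (S := lcsSer N) (j := 0) hx hy]
    exact h.bk_pc le_rfl le_rfl (norm_lcs h.norm) cv_H (mem_bk (ih hx).2 (h0 hy).2)

end LieRing

end Cfsg.Lib.Lie.Sh
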