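import Cfsg.Agent.Lib.Lie.Fam
import Cfsg.Agent.Lib.Sig.Main
import Cfsg.Agent.Lib.PGroup.Holomorph

/-!
# Bounding the class from the centralisers of a coprime elementary abelian group of automorphisms
-/

set_option autoImplicit false

namespace Cfsg.Lib.Lie.Sh

open Subgroup Cfsg.Lib Cfsg.Lib.BG
open scoped commutatorElement Pointwise

variable {G : Type*} [Group G] {p : ℕ} {A N X Z H K : Subgroup G}

/-- derived series of a subgroup -/
def ds (H : Subgroup G) : ℕ → Subgroup G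
  | 0 => H
  | n + 1 => ⁅ds H n, ds H n⁆

theorem ds_mono (h : H ≤ K) : ∀ n, ds H n ≤ ds K n
  | 0 => h
  | n + 1 => commutator_mono (ds_mono h n) (ds_mono h n)

theorem ds_le (H : Subgroup G) : ∀ n, ds H n ≤ H
  | 0 => le_rfl
  | n + 1 => (BG.der_le _).trans (ds_le H n)

theorem norm_ds (h : A ≤ 𝐍(H)) : ∀ n, A ≤ 𝐍(ds H n)
  | 0 => h
  | n + 1 => norm_der (norm_ds h n)

theorem ds_add (H : Subgroup G) (m : ℕ) : ∀ n, ds H (m + n) = ds (ds H m) n
  | 0 => rfl
  | n + 1 => by rw [← add_assoc, ds, ds_add H m n, ds]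

theorem ds_le_lcs (H : Subgroup G) : ∀ n, ds H n ≤ H.lowerCentralSeries n
  | 0 => le_rfl
  | n + 1 => commutator_mono (ds_le_lcs H n) (ds_le H n)

theorem map_ds {G' : Type*} [Group G'] (f : G →* G') (H : Subgroup G) :
    ∀ n, (ds H n).map f = ds (H.map f) n
  | 0 => rfl
  | n + 1 => by rw [ds, map_commutator, map_ds f H n, ds]

theorem ds_top : ∀ n, ds (⊤ : Subgroup G) n = derivedSeries G n
  | 0 => rfl
  | n + 1 => by rw [ds, ds_top n, derivedSeries_succ]

theorem solv_of_ds {n : ℕ} (h : ds H n = ⊥) : Group.IsSolvable H := by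
  refine ⟨n, ?_⟩
  rw [← ds_top, ← map_eq_bot_iff_of_injective _ H.subtype_injective, map_ds,
    ← MonoidHom.range_eq_map, range_subtype, h]

theorem sym_mem_it (K : Subgroup G) (n : ℕ) :
    K.lowerCentralSeries n ≤ pre (lcsSer K) (it ⊤ ⊤ n) n := by
  induction n with
  | zero => exact fun _ hg => ⟨hg, trivial⟩
  | succ n ih =>
    refine commutator_le.2 fun x hx y hy => ⟨commutator_mem_commutator hx hy, ?_⟩
    rw [← Ser.lie_sym (S := lcsSer K) (j := 0) hx hy, it_succ]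
    exact mem_bk (ih hx).2 trivial

/-- the derived families -/
def df (E : ℕ → Subgroup G) : ℕ → ℕ → Subgroup G
  | 0 => E
  | n + 1 => cv (df E n) (df E n)

variable [Finite G] [hp : Fact p.Prime] {S : Set (Subgroup G)} {u : ℕ}

omit hp in
theorem norm_cv {E : ℕ → Subgroup G} (h : ∀ i, A ≤ 𝐍(E i)) (r : ℕ) : A ≤ 𝐍(cv E E r) :=
  fun _ ha => norm_of_gen (iSup_le fun i => iSup_le fun j => iSup_le fun e _ hz =>
    e ▸ le_cv (E := E) (F := E) i j (conj_mem_of_norm (norm_comm (h i) (h j) ha) hz))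

theorem Fam.dr_bot (h : Fam p A N S u) {t : ℕ} (ht : S.ncard ≤ t) {a : G} (ha : a ∈ A) {s : ℕ}
    (hs : ds (N ⊓ 𝐂[a]) s = ⊥) : dr (lcsSer N).Gr (kb ((t * u + 1) ^ s) p) = ⊥ := by
  have hAa : A ≤ 𝐂[a] := le_cent1_iff.2 (abelian_cent h.elem.1 ha)
  have hn : A ≤ 𝐍(N ⊓ 𝐂[a]) := norm_inf h.norm (norm_cent1 hAa)
  have h1 := h.it_pc ht (s := s) (E := fun i r => (lcsSer N).H r ⊓ ds (N ⊓ 𝐂[a]) i)
    (fun _ _ => inf_le_left) (fun i r => norm_inf (norm_lcs h.norm r) (norm_ds hn i))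
    (fun i => cv_le fun j k => le_inf ((commutator_mono inf_le_left inf_le_left).trans
      ((le_cv j k).trans (cv_H _))) (commutator_mono inf_le_right inf_le_right))
    (fun i r => inf_le_inf_left _ (BG.der_le _)) (lam_bot fun i => by rw [hs, inf_bot_eq])
  let α : G →* G := (MulAut.conj a).toMonoidHom
  have hα : ∀ n (g : G), α^[n] g = a ^ n * g * (a ^ n)⁻¹ := by
    intro n g
    induction n with
    | zero => simp
    | succ n ih =>
      rw [Function.iterate_succ_apply', ih]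
      change a * _ * a⁻¹ = _
      rw [pow_succ']; group
  have hH : ∀ i, ∀ g ∈ (lcsSer N).H i, α g ∈ (lcsSer N).H i := fun i g hg =>
    conj_mem_of_norm (norm_lcs h.norm i ha) hg
  obtain ⟨φ, h2, h3⟩ := Ser.exists_end α hH
  have h4 : φ ^ p = 1 := LinearMap.ext fun x => by
    induction x using Ser.induction with
    | h0 => simp
    | h2 _ _ h h' => rw [map_add, map_add, h, h']
    | h1 i g hg => rw [h3 _ _ _ hg, hα, h.elem.2 a ha]; simp
  set τ := ∑ j ∈ .range p, φ ^ j with hτ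
  have h5 : ∀ n, τ * φ ^ n = τ := by
    have : τ * φ = τ := by
      have := geom_sum_mul φ p
      rw [h4, sub_self, mul_sub, mul_one, sub_eq_zero] at this
      exact this
    intro n
    induction n with
    | zero => simp
    | succ n ih => rw [pow_succ, ← mul_assoc, ih, this]
  have hpA : p ∣ Nat.card A := by
    obtain ⟨b, hb, hb1⟩ := exists_ne_one h.ne
    rw [← orderOf_eq_prime (h.elem.2 b hb) hb1]
    exact Subgroup.orderOf_dvd_natCard A hb
  refine dr_eq_bot h2 h4 (fun x => ?_) h1 (e := Nat.card N)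
    (Nat.Coprime.coprime_dvd_left hpA h.cop).symm fun x => ?_
  · have hx : x ∈ pc (lcsSer N) S (lcsSer N).H := h.pc_top ▸ trivial
    refine iSup_le (f := fun H : S => lam (lcsSer N) fun i => (lcsSer N).H i ⊓ H.1)
      (a := (pc (lcsSer N) S fun r => (lcsSer N).H r ⊓ ds (N ⊓ 𝐂[a]) 0).comap
      τ.toAddMonoidHom) (fun H => lam_le fun r g hg => ⟨hg.1, ?_⟩) hx
    have hz : zpowers a ≤ A := zpowers_le.2 ha
    have hle : (lcsSer N).H r ⊓ H.1 ≤ N := inf_le_right.trans (h.le H.2)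
    have hnn : zpowers a ≤ 𝐍((lcsSer N).H r ⊓ H.1) :=
      hz.trans (norm_inf (norm_lcs h.norm r) (h.inv _ H.2))
    obtain ⟨c, hc, n, hn, rfl⟩ := Coprime.exists_centralizer_mul_commutator hnn
      (coprime_mono h.cop hz hle) (Or.inl inferInstance) hg
    have hn2 : ⁅(lcsSer N).H r ⊓ H.1, zpowers a⁆ ≤ pre (lcsSer N) τ.toAddMonoidHom.ker r := by
      refine commutator_le.2 fun k hk b hb => ⟨(comm_le_left hnn (commutator_mem_commutator hk hb)).1, ?_⟩
      obtain ⟨j, rfl⟩ := (mem_powers_iff_mem_zpowers.2 hb)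
      have e : ⁅k, a ^ j⁆ = k * (α^[j] k)⁻¹ := by
        rw [hα]; simp only [commutatorElement_def]; group
      have hk' : α^[j] k ∈ (lcsSer N).H r := Function.Iterate.rec _ hk.1 (hH r) j
      change τ _ = 0
      rw [e, Ser.sym_mul hk.1 (inv_mem hk'), Ser.sym_inv hk', ← h3 _ _ _ hk.1, map_add, map_neg,
        ← Module.End.mul_apply, h5, add_neg_cancel]
    change τ _ ∈ pc (lcsSer N) S fun r => (lcsSer N).H r ⊓ ds (N ⊓ 𝐂[a]) 0
    rw [Ser.sym_mul hc.1.1 (hn2 hn).1, map_add, show τ _ = 0 from (hn2 hn).2, add_zero, hτ,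
      LinearMap.sum_apply]
    refine sum_mem fun j _ => ?_
    have hc1 : c ∈ 𝐂[a] := cent_zpowers a ▸ hc.2
    have : a ^ j * c * (a ^ j)⁻¹ = c := by
      rw [← mem_cent1.1 (cent1_le_cent1_pow a j hc1), mul_inv_cancel_right]
    rw [h3 _ _ _ hc.1.1, hα, this]
    exact le_iSup (fun H : S => lam (lcsSer N) fun i => (lcsSer N).H i ⊓ ds (N ⊓ 𝐂[a]) 0 ⊓ H.1) H
      (mem_lam ⟨⟨hc.1.1, hle hc.1, hc1⟩, hc.1.2⟩)
  · induction x using Ser.induction with
    | h0 => simp
    | h2 _ _ h h' => rw [smul_add, h, h', add_zero]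
    | h1 i g hg =>
      have : g ^ Nat.card N = 1 := orderOf_dvd_iff_pow_eq_one.1
        (Subgroup.orderOf_dvd_natCard N (lowerCentralSeries_le_self N i hg))
      rw [← Ser.sym_pow hg, this, Ser.sym_one]

/-- the bound -/
def bd (p t u s : ℕ) : ℕ := (t * u + 1) ^ kb ((t * u + 1) ^ s) p

theorem Fam.lcs_bot (h : Fam p A N S u) (hN : Group.IsSolvable N) {t : ℕ} (ht : S.ncard ≤ t)
    {a : G} (ha : a ∈ A) {s : ℕ} (hs : ds (N ⊓ 𝐂[a]) s = ⊥) :
    N.lowerCentralSeries (bd p t u s) = ⊥ := by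
  have h1 : ∀ i, df (lcsSer N).H i ≤ (lcsSer N).H := by
    intro i
    induction i with
    | zero => exact le_rfl
    | succ i ih => exact (cv_mono ih ih).trans cv_H
  have h2 : ∀ i r, A ≤ 𝐍(df (lcsSer N).H i r) := by
    intro i
    induction i with
    | zero => exact norm_lcs h.norm
    | succ i ih => exact norm_cv ih
  have h3 : ∀ i, df (lcsSer N).H (i + 1) ≤ df (lcsSer N).H i := by
    intro i
    induction i with
    | zero => exact cv_H
    | succ i ih => exact cv_mono ih ih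
  have h4 : ∀ i, lam (lcsSer N) (df (lcsSer N).H i) ≤ dr _ i := by
    intro i
    induction i with
    | zero => exact le_top
    | succ i ih => exact (lam_cv (h1 i) (h1 i)).trans (bk_mono ih ih)
  have h5 := h.it_pc ht h1 h2 (fun _ => le_rfl) h3
    (eq_bot_iff.2 ((h4 _).trans (h.dr_bot ht ha hs).le))
  rw [show df (lcsSer N).H 0 = (lcsSer N).H from rfl, h.pc_top] at h5
  have h6 : N.lowerCentralSeries (bd p t u s) ≤ N.lowerCentralSeries (bd p t u s + 1) := by
    intro g hg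
    have := (sym_mem_it N _ hg).2
    rw [bd, h5] at this
    exact Ser.mem_of_sym_eq_zero (S := lcsSer N) hg this
  by_contra h0
  haveI := h.nilpotent hN
  exact (PGroup.commutator_lt_of_nilpotent (lowerCentralSeries_le_self N _)
    (norm_lcs (le_norm N) _) h0).not_ge h6

/-- the standing hypotheses -/
structure St (p k : ℕ) (A X : Subgroup G) : Prop where
  elem : IsElementaryAbelian p A
  card : Nat.card A = p ^ k
  three : 3 ≤ k
  cop : (Nat.card A).Coprime (Nat.card X)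
  norm : A ≤ 𝐍(X)

variable {k : ℕ}

omit [Finite G] in
theorem St.ne (h : St p k A X) : A ≠ ⊥ := fun e => by
  have := h.card
  rw [e, card_bot] at this
  exact absurd (Nat.pow_eq_one.1 this.symm) (by
    have := h.three; have := hp.out.one_lt; omega)

theorem St.solvable (h : St p k A X) (hs : ∀ a ∈ A, a ≠ 1 → Group.IsSolvable ↥(X ⊓ 𝐂[a])) :
    Group.IsSolvable X := by
  have hp3 : p ^ 3 ≤ Nat.card A := h.card ▸ Nat.pow_le_pow_right hp.out.pos h.three
  have h1 := Sig.closure_mem (θ := fun a => X ⊓ 𝐂[a]) h.elem hp3 ⟨⟨fun _ _ _ => inf_le_right,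
    fun a _ _ hd => ?_, fun a ha _ b hb x hx => conj_mem_of_norm (norm_inf h.norm
      (norm_cent1 (le_cent1_iff.2 (abelian_cent h.elem.1 ha))) hb) hx,
    fun _ _ _ _ _ _ => inf_le_inf_right _ inf_le_left⟩, hs⟩
  · refine sol_of_le h1.1 (Coprime.le_of_forall_centralizer_le h.elem.1 (fun hc => ?_) h.norm h.cop
      fun a ha h1 => le_iSup (fun a : {a : G // a ∈ A ∧ a ≠ 1} => X ⊓ 𝐂[(a : G)]) ⟨a, ha, h1⟩)
    obtain ⟨x, hx, e⟩ := cyclic_iff.1 hc
    have h2 : Nat.card A ≤ p := by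
      rw [← e, Nat.card_zpowers]
      exact Nat.le_of_dvd hp.out.pos (orderOf_dvd_of_pow_eq_one (h.elem.2 x hx))
    have : p ^ 1 < p ^ 3 := Nat.pow_lt_pow_right hp.out.one_lt (by norm_num)
    rw [pow_one] at this
    omega
  · have h3 : p ∣ Nat.card A := h.card ▸ dvd_pow_self p (by have := h.three; omega)
    exact hp.out.one_lt.ne' (Nat.eq_one_of_dvd_coprimes h.cop h3 (hd.trans (card_dvd inf_le_left)))

/-- special subgroups -/
def sp (p : ℕ) (A X : Subgroup G) (b : Bool) : ℕ → Set (Subgroup G)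
  | 0 => {Z | ∃ B, Hy p A B ∧ Z = X ⊓ 𝐂(B)}
  | d + 1 => nx p A (sp p A X b d) (if b then sp p A X b d else {Z | ∃ B, Hy p A B ∧ Z = X ⊓ 𝐂(B)})

/-- the second family -/
def sq (p : ℕ) (A X : Subgroup G) (b : Bool) (d : ℕ) : Set (Subgroup G) :=
  sp p A X b (if b then d else 0)

omit [Finite G] hp in
theorem sp_succ (b : Bool) (d : ℕ) : sp p A X b (d + 1) = nx p A (sp p A X b d) (sq p A X b d) := by
  cases b <;> rfl

/-- the corresponding verbal series -/
def vs (X : Subgroup G) (b : Bool) (d : ℕ) : Subgroup G :=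
  if b then ds X d else X.lowerCentralSeries d

omit [Finite G] in
theorem vs_succ (b : Bool) (d : ℕ) : vs X b (d + 1) = ⁅vs X b d, vs X b (if b then d else 0)⁆ := by
  cases b <;> rfl

omit [Finite G] in
theorem vs_zero (b : Bool) : vs X b 0 = X := by cases b <;> rfl

omit [Finite G] in
theorem vs_mono (h : H ≤ K) (b : Bool) (d : ℕ) : vs H b d ≤ vs K b d := by
  cases b
  exacts [lowerCentralSeries_mono d h, ds_mono h d]

theorem norm_vs (h : A ≤ 𝐍(H)) (b : Bool) (d : ℕ) : A ≤ 𝐍(vs H b d) := by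
  cases b
  exacts [norm_lcs h d, norm_ds h d]

omit [Finite G] in
theorem ds_le_vs (b : Bool) (d : ℕ) : ds H d ≤ vs H b d := by
  cases b
  exacts [ds_le_lcs H d, le_rfl]

omit [Finite G] in
theorem vs_le (b : Bool) (d : ℕ) : vs H b d ≤ H := by
  cases b
  exacts [lowerCentralSeries_le_self H d, ds_le H d]

omit [Finite G] hp in
theorem St.norm_cent (h : St p k A X) {B : Subgroup G} (hB : B ≤ A) : A ≤ 𝐍(𝐂(B)) :=
  BG.norm_cent (abelian_norm h.elem.1 hB)

omit [Finite G] hp in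
theorem St.sp_inv (h : St p k A X) (b : Bool) (d : ℕ) :
    ∀ K ∈ sp p A X b d, A ≤ 𝐍(K) ∧ K ≤ X := by
  induction d using Nat.strong_induction_on with
  | _ d ih =>
  rcases d with _ | d
  · rintro _ ⟨B, hB, rfl⟩; exact ⟨norm_inf h.norm (h.norm_cent hB.1), inf_le_left⟩
  · rw [sp_succ]
    rintro _ ⟨K, hK, K', hK', B, hB, rfl⟩
    have h1 := ih d (by omega) K hK
    have h2 := ih _ (by split_ifs <;> omega) K' hK'
    exact ⟨norm_inf (norm_comm h1.1 h2.1) (h.norm_cent hB.1),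
      inf_le_left.trans (comm_le_of_le h1.2 h2.2)⟩

omit [Finite G] hp in
theorem St.sp_down (h : St p k A X) (b : Bool) (d : ℕ) :
    ∀ K ∈ sp p A X b (d + 1), ∃ K' ∈ sp p A X b d, K ≤ K' := by
  induction d with
  | zero =>
    intro K hK
    have := (h.sp_inv b _ K hK).2
    rw [sp_succ] at hK
    obtain ⟨K1, -, K2, -, B, hB, rfl⟩ := hK
    exact ⟨_, ⟨B, hB, rfl⟩, le_inf this inf_le_right⟩
  | succ d ih =>
    rw [sp_succ b (d + 1)]
    rintro _ ⟨K, hK, K', hK', B, hB, rfl⟩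
    obtain ⟨K1, h1, h2⟩ := ih K hK
    obtain ⟨K2, h3, h4⟩ : ∃ K2 ∈ sq p A X b d, K' ≤ K2 := by
      cases b
      · exact ⟨K', hK', le_rfl⟩
      · exact ih K' hK'
    exact ⟨_, by rw [sp_succ]; exact ⟨K1, h1, K2, h3, B, hB, rfl⟩,
      inf_le_inf_right _ (commutator_mono h2 h4)⟩

omit [Finite G] hp in
theorem St.sp_sq (h : St p k A X) (b : Bool) (d : ℕ) :
    ∀ K ∈ sp p A X b d, ∃ K' ∈ sq p A X b d, K ≤ K' := by
  cases b
  · induction d with
    | zero => exact fun K hK => ⟨K, hK, le_rfl⟩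
    | succ d ih =>
      intro K hK
      obtain ⟨K1, h1, h2⟩ := h.sp_down _ d K hK
      obtain ⟨K2, h3, h4⟩ := ih K1 h1
      exact ⟨K2, h3, h2.trans h4⟩
  · exact fun K hK => ⟨K, hK, le_rfl⟩

omit [Finite G] hp in
theorem St.sp_clo (h : St p k A X) (b : Bool) (d : ℕ) : ∀ K ∈ sp p A X b d, ∀ K' ∈ sq p A X b d,
    ∀ B, Hy p A B → ∃ K1 ∈ sp p A X b d, ⁅K, K'⁆ ⊓ 𝐂(B) ≤ K1 := fun K hK K' hK' B hB =>
  h.sp_down b d _ (by rw [sp_succ]; exact ⟨K, hK, K', hK', B, hB, rfl⟩)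

theorem St.sSup_sp (h : St p k A X) (b : Bool) (d : ℕ) : sSup (sp p A X b d) = vs X b d := by
  induction d using Nat.strong_induction_on with
  | _ d ih =>
  rcases d with _ | d
  · rw [vs_zero]
    exact le_antisymm (sSup_le fun K hK => (h.sp_inv b 0 K hK).2)
      (gen_le h.elem h.ne h.cop le_rfl h.norm fun B hB => le_sSup ⟨B, hB, rfl⟩)
  · rw [sp_succ, vs_succ, ← ih d (by omega), ← ih _ (by split_ifs <;> omega)]
    refine le_antisymm (sSup_le ?_) (comm_sSup_le h.elem h.ne h.cop (h.sp_inv b d) (h.sp_inv b _)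
      (sSup_le fun K hK => ?_) (h.sp_clo b d))
    · rintro _ ⟨K, hK, K', hK', B, -, rfl⟩
      exact inf_le_left.trans (commutator_mono (le_sSup hK) (le_sSup hK'))
    · obtain ⟨K', h1, h2⟩ := h.sp_sq b d K hK
      exact le_sSup_of_le h1 h2

/-- codimension bound -/
def cdm (b : Bool) (d : ℕ) : ℕ := if b then 2 ^ d else d + 1

omit hp in
theorem sp_le (b : Bool) (d : ℕ) : ∀ K ∈ sp p A X b d,
    ∃ D ≤ A, D.relIndex A ≤ p ^ cdm b d ∧ K ≤ vs (X ⊓ 𝐂(D)) b d := by
  induction d using Nat.strong_induction_on with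
  | _ d ih =>
  rcases d with _ | d
  · rintro _ ⟨B, hB, rfl⟩
    exact ⟨B, hB.1, by cases b <;> simp [cdm, hB.2], (vs_zero b).ge⟩
  · rw [sp_succ]
    rintro _ ⟨K, hK, K', hK', B, hB, rfl⟩
    obtain ⟨D, h1, h2, h3⟩ := ih d (by omega) K hK
    obtain ⟨D', h4, h5, h6⟩ := ih _ (by split_ifs <;> omega) K' hK'
    refine ⟨D ⊓ D', inf_le_left.trans h1, (relIndex_inf_le.trans (Nat.mul_le_mul h2 h5)).trans ?_,
      inf_le_left.trans ?_⟩
    · rw [← pow_add]; cases b <;> simp [cdm, pow_succ, mul_two]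
    · rw [vs_succ]
      exact commutator_mono (h3.trans (vs_mono (inf_le_inf_left _ (cent_anti inf_le_left)) _ _))
        (h6.trans (vs_mono (inf_le_inf_left _ (cent_anti inf_le_right)) _ _))

/-- bound for the number of special subgroups -/
def nb (h : ℕ) : ℕ → ℕ
  | 0 => h
  | d + 1 => nb h d * (nb h d + h) * h

omit hp in
theorem ncard_hy : {B | Hy p A B}.ncard ≤ 2 ^ Nat.card A := by
  classical
  have : {B | Hy p A B}.ncard ≤ (Set.univ : Set (Set A)).ncard :=
    Set.ncard_le_ncard_of_injOn (fun B => (B.subgroupOf A : Set A)) (fun _ _ => trivial)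
      fun B hB B' hB' e => by
        rw [← inf_eq_left.2 hB.1, ← inf_eq_left.2 hB'.1]
        exact subgroupOf_inj.1 (SetLike.coe_injective e)
  haveI i := Fintype.ofFinite A
  rwa [Set.ncard_univ, Nat.card_eq_fintype_card, Fintype.card_set, ← Nat.card_eq_fintype_card] at this

omit hp in
theorem ncard_sp (b : Bool) (d : ℕ) : (sp p A X b d).ncard ≤ nb (2 ^ Nat.card A) d := by
  have h0 : (sp p A X b 0).ncard ≤ 2 ^ Nat.card A := by
    refine le_trans ?_ (ncard_hy (p := p))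
    refine le_trans (Set.ncard_le_ncard ?_) (Set.ncard_image_le (f := fun B => X ⊓ 𝐂(B)))
    rintro _ ⟨B, hB, rfl⟩; exact ⟨B, hB, rfl⟩
  induction d with
  | zero => exact h0
  | succ d ih =>
    have h1 : (sq p A X b d).ncard ≤ nb (2 ^ Nat.card A) d + 2 ^ Nat.card A := by
      cases b
      · exact h0.trans (Nat.le_add_left _ _)
      · exact ih.trans (Nat.le_add_right _ _)
    rw [sp_succ, nb]
    refine le_trans (Set.ncard_le_ncard ?_) ((Set.ncard_image_le
      (f := fun x : (Subgroup G × Subgroup G) × Subgroup G => ⁅x.1.1, x.1.2⁆ ⊓ 𝐂(x.2))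
      (s := (sp p A X b d ×ˢ sq p A X b d) ×ˢ {B | Hy p A B})).trans ?_)
    · rintro _ ⟨K, hK, K', hK', B, hB, rfl⟩; exact ⟨((K, K'), B), ⟨⟨hK, hK'⟩, hB⟩, rfl⟩
    · rw [Set.ncard_prod, Set.ncard_prod]
      exact Nat.mul_le_mul (Nat.mul_le_mul ih h1) ncard_hy

theorem St.main (h : St p k A X) (b : Bool) {d c : ℕ} (hd : cdm b d + 2 ≤ k)
    (hc : ∀ a ∈ A, a ≠ 1 → (vs (X ⊓ 𝐂[a]) b d).lowerCentralSeries c = ⊥) :
    (vs X b d).lowerCentralSeries (bd p (nb (2 ^ p ^ k) d) (c + 1) (d + c)) = ⊥ := by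
  have h1 : ∀ a ∈ A, a ≠ 1 → ds (X ⊓ 𝐂[a]) (d + c) = ⊥ := fun a ha h1 => by
    rw [ds_add]
    exact eq_bot_mono (hc a ha h1) ((ds_le_lcs _ _).trans (lowerCentralSeries_mono c (ds_le_vs b d)))
  have h2 := h.solvable fun a ha h2 => solv_of_ds (h1 a ha h2)
  have hF : Fam p A (vs X b d) (sp p A X b d) (c + 1) :=
    { elem := h.elem, ne := h.ne, cop := coprime_mono h.cop le_rfl (vs_le b d)
      sup := h.sSup_sp b d, inv := fun H hH => (h.sp_inv b d H hH).1
      clo := fun H hH H' hH' B hB => by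
        obtain ⟨K', h3, h4⟩ := h.sp_sq b d H' hH'
        obtain ⟨K1, h5, h6⟩ := h.sp_clo b d H hH K' h3 B hB
        exact ⟨K1, h5, (inf_le_inf_right _ (commutator_mono le_rfl h4)).trans h6⟩
      nil := fun H hH B hB => by
        obtain ⟨D, h3, h4, h5⟩ := sp_le b d H hH
        have h6 : D ⊓ B ≠ ⊥ := fun e => by
          have h7 : (D ⊓ B).relIndex A ≤ p ^ cdm b d * p :=
            relIndex_inf_le.trans (Nat.mul_le_mul h4 hB.2.le)
          rw [e, relIndex_bot_left, h.card, ← pow_succ] at h7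
          have := (Nat.pow_le_pow_iff_right hp.out.one_lt).1 h7
          omega
        obtain ⟨a, ha, ha1⟩ := exists_ne_one h6
        have h7 : H ≤ vs (X ⊓ 𝐂[a]) b d :=
          h5.trans (vs_mono (inf_le_inf_left _ (cent_le_cent1 ha.1)) _ _)
        have h8 : ⁅vs X b d ⊓ 𝐂(B), H⁆ ≤ vs (X ⊓ 𝐂[a]) b d :=
          (commutator_mono (inf_le_inf (vs_le b d) (cent_le_cent1 ha.2)) h7).trans
            (comm_le_right (norm_vs (le_norm _) b d))
        rw [add_comm, PGroup.iterCommutator_add]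
        refine eq_bot_mono (hc a (h3 ha.1) ha1) ?_
        rw [PGroup.lowerCentralSeries_eq_iterCommutator]
        exact PGroup.iterCommutator_mono h8 h7 c }
  obtain ⟨a, ha, ha1⟩ := exists_ne_one h.ne
  exact hF.lcs_bot (sol_of_le h2 (vs_le b d)) (h.card ▸ ncard_sp b d) ha
    (eq_bot_mono (h1 a ha ha1) (ds_mono (inf_le_inf_right _ (vs_le b d)) _))

omit [Finite G] in
theorem map_vs {G' : Type*} [Group G'] (f : G →* G') (H : Subgroup G) (b : Bool) (d : ℕ) :
    (vs H b d).map f = vs (H.map f) b d := by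
  cases b
  exacts [map_lowerCentralSeries H f d, map_ds f H d]

open PGroup in
theorem main_aut (hG : (Nat.card G).Coprime p) {A : Subgroup (MulAut G)}
    (hA : IsElementaryAbelian p A) (hk : Nat.card A = p ^ k) (h3 : 3 ≤ k) (b : Bool) {d c : ℕ}
    (hd : cdm b d + 2 ≤ k) (hc : ∀ a ∈ A, a ≠ 1 → (vs (⊤ : Subgroup ↥((a : MulAut G).toMonoidHom.eqLocus
      (MonoidHom.id G))) b d).lowerCentralSeries c = ⊥) :
    (vs (⊤ : Subgroup G) b d).lowerCentralSeries (bd p (nb (2 ^ p ^ k) d) (c + 1) (d + c)) = ⊥ := by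
  have h : St p k (A.map (holR G)) ((⊤ : Subgroup G).map (holL G)) :=
    { elem := ⟨abelian_map _ hA.1, by
        rintro _ ⟨a, ha, rfl⟩; rw [← map_pow, hA.2 a ha, map_one]⟩
      card := by rw [card_map_holR, hk]
      three := h3
      cop := by rw [card_map_holR, card_map_holL, hk, card_top]; exact hG.symm.pow_left _
      norm := map_holR_le_normalizer_top A }
  have := h.main b hd (c := c) (by
    rintro _ ⟨a, ha, rfl⟩ h1
    have h2 := congrArg (Subgroup.map ((holL G).comp (Subgroup.subtype _)))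
      (hc a ha fun e => h1 (by rw [e, map_one]))
    rw [map_lowerCentralSeries, map_vs, Subgroup.map_bot] at h2
    refine eq_bot_mono h2 (lowerCentralSeries_mono c (vs_mono ?_ b d))
    rintro _ ⟨⟨g, -, rfl⟩, hg⟩
    exact ⟨⟨g, hol_comm_iff.1 (mem_cent1.1 hg).symm⟩, trivial, rfl⟩)
  rwa [← map_vs, ← map_lowerCentralSeries, map_eq_bot_iff_of_injective _ holL_injective] at this

end Cfsg.Lib.Lie.Sh
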