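import Cfsg.Agent.Lib.Lie.Eigen

/-!
# Kreknin's theorem with a nilpotently acting zero component; nilpotent actions of sums of pieces
-/

set_option autoImplicit false

namespace Cfsg.Lib.Lie.Sh

open Polynomial Module TensorProduct

section Bk

variable {L : Type*} [LieRing L] {U U' V V' Z : AddSubgroup L}

/-- the bracket of additive subgroups -/
def bk (U V : AddSubgroup L) : AddSubgroup L := .closure {x | ∃ a ∈ U, ∃ b ∈ V, ⁅a, b⁆ = x}

theorem mem_bk {a b : L} (ha : a ∈ U) (hb : b ∈ V) : ⁅a, b⁆ ∈ bk U V :=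
  AddSubgroup.subset_closure ⟨a, ha, b, hb, rfl⟩

theorem bk_le : bk U V ≤ Z ↔ ∀ a ∈ U, ∀ b ∈ V, ⁅a, b⁆ ∈ Z :=
  ⟨fun h _ ha _ hb => h (mem_bk ha hb),
    fun h => (AddSubgroup.closure_le _).2 fun _ ⟨a, ha, b, hb, e⟩ => e ▸ h a ha b hb⟩

theorem bk_mono (h : U ≤ U') (h' : V ≤ V') : bk U V ≤ bk U' V' :=
  bk_le.2 fun _ ha _ hb => mem_bk (h ha) (h' hb)

theorem bk_comm_le : bk U V ≤ bk V U :=
  bk_le.2 fun a ha b hb => by rw [← lie_skew]; exact neg_mem (mem_bk hb ha)

theorem bk_iSup_left {ι : Sort*} {X : ι → AddSubgroup L} (h : ∀ i, bk (X i) V ≤ Z) :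
    bk (⨆ i, X i) V ≤ Z :=
  bk_le.2 fun _ ha b hb =>
    iSup_le (f := X) (a := Z.comap (rb b)) (fun i _ hx => h i (mem_bk hx hb)) ha

theorem bk_iSup_right {ι : Sort*} {X : ι → AddSubgroup L} (h : ∀ i, bk U (X i) ≤ Z) :
    bk U (⨆ i, X i) ≤ Z :=
  bk_le.2 fun a ha _ hb =>
    iSup_le (f := X) (a := Z.comap (lb a)) (fun i _ hx => h i (mem_bk ha hx)) hb

theorem bk_sup_left : bk (U ⊔ U') V ≤ bk U V ⊔ bk U' V :=
  bk_le.2 fun _ ha b hb => sup_le (a := U) (b := U') (c := (bk U V ⊔ bk U' V).comap (rb b))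
    (fun _ hx => AddSubgroup.mem_sup_left (mem_bk hx hb))
    (fun _ hx => AddSubgroup.mem_sup_right (mem_bk hx hb)) ha

theorem bk_sup_right : bk U (V ⊔ V') ≤ bk U V ⊔ bk U V' :=
  bk_comm_le.trans (bk_sup_left.trans (sup_le_sup bk_comm_le bk_comm_le))

theorem bk_bot_left : bk ⊥ V = ⊥ :=
  eq_bot_iff.2 (bk_le.2 fun a ha b _ => by rw [AddSubgroup.mem_bot.1 ha, zero_lie]; exact zero_mem _)

theorem bk_bot_right : bk U ⊥ = ⊥ := eq_bot_iff.2 (bk_comm_le.trans bk_bot_left.le)

theorem bk_bk_le (U V W : AddSubgroup L) : bk (bk U V) W ≤ bk (bk U W) V ⊔ bk U (bk V W) := by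
  refine bk_le.2 fun x hx y hy => ?_
  refine (bk_le (Z := (bk (bk U W) V ⊔ bk U (bk V W)).comap (rb y))).2 (fun a ha b hb => ?_) hx
  rw [AddSubgroup.mem_comap, rb_apply, lie_lie_right]
  exact AddSubgroup.add_mem_sup (mem_bk (mem_bk ha hy) hb) (mem_bk ha (mem_bk hb hy))

/-- iterated bracket -/
def it (U V : AddSubgroup L) (n : ℕ) : AddSubgroup L := (bk · V)^[n] U

theorem it_succ (n : ℕ) : it U V (n + 1) = bk (it U V n) V := Function.iterate_succ_apply' _ _ _

theorem it_add (m n : ℕ) : it U V (m + n) = it (it U V m) V n := by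
  rw [it, add_comm, Function.iterate_add_apply]; rfl

theorem it_mono (h : U ≤ U') (h' : V ≤ V') : ∀ n, it U V n ≤ it U' V' n
  | 0 => h
  | n + 1 => by rw [it_succ, it_succ]; exact bk_mono (it_mono h h' n) h'

theorem it_iSup {ι : Sort*} (X : ι → AddSubgroup L) : ∀ n, it (⨆ i, X i) V n ≤ ⨆ i, it (X i) V n
  | 0 => le_rfl
  | n + 1 => by
    rw [it_succ]
    refine (bk_mono (it_iSup X n) le_rfl).trans (bk_iSup_left fun i => ?_)
    rw [← it_succ]; exact le_iSup (fun i => it (X i) V (n + 1)) i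

theorem it_sup : ∀ n, it (U ⊔ U') V n ≤ it U V n ⊔ it U' V n
  | 0 => le_rfl
  | n + 1 => by
    rw [it_succ, it_succ, it_succ]
    exact (bk_mono (it_sup n) le_rfl).trans bk_sup_left

theorem it_le (h : bk U V ≤ U) : ∀ n, it U V n ≤ U
  | 0 => le_rfl
  | n + 1 => by rw [it_succ]; exact (bk_mono (it_le h n) le_rfl).trans h

/-- two pieces acting commutatively modulo `W` -/
theorem it_sup_le {V W X Y : AddSubgroup L} (hX : bk V X ≤ V) (hY : bk V Y ≤ V)
    (hWX : bk W X ≤ W) (hWY : bk W Y ≤ W) (hc : bk V (bk X Y) ≤ W) (m n : ℕ) :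
    ∀ U ≤ V, it U X m ≤ W → it U Y n ≤ W → it U (X ⊔ Y) (m + n) ≤ W := by
  have hW : bk W (X ⊔ Y) ≤ W := bk_sup_right.trans (sup_le hWX hWY)
  have key : ∀ {X Y : AddSubgroup L}, bk V Y ≤ V → bk W X ≤ W → bk W Y ≤ W →
      bk V (bk X Y) ≤ W → ∀ U ≤ V, ∀ n, it (bk U X) Y n ≤ bk (it U Y n) X ⊔ W := by
    intro X Y hY hWX hWY hc U hU n
    induction n with
    | zero => exact le_sup_left
    | succ n ih =>
      rw [it_succ, it_succ]
      refine (bk_mono ih le_rfl).trans (bk_sup_left.trans (sup_le ((bk_bk_le _ _ _).trans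
        (sup_le le_sup_left ?_)) (hWY.trans le_sup_right)))
      exact le_sup_of_le_right ((bk_mono ((it_mono hU le_rfl n).trans (it_le hY n)) le_rfl).trans hc)
  induction m generalizing n with
  | zero => exact fun U _ h _ => (it_mono h le_rfl _).trans (it_le hW _)
  | succ m ihm =>
    induction n with
    | zero => exact fun U _ _ h => (it_mono h le_rfl _).trans (it_le hW _)
    | succ n ihn =>
      intro U hU h1 h2
      rw [show m + 1 + (n + 1) = 1 + (m + (n + 1)) by omega, it_add]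
      refine (it_mono (bk_sup_right (U := U)) le_rfl _).trans ((it_sup _).trans (sup_le ?_ ?_))
      · refine ihm (n + 1) _ ((bk_mono hU le_rfl).trans hX) ?_ ?_
        · rwa [add_comm, it_add] at h1
        · exact (key hY hWX hWY hc U hU _).trans (sup_le ((bk_mono h2 le_rfl).trans hWX) le_rfl)
      · rw [show m + (n + 1) = m + 1 + n by omega]
        refine ihn _ ((bk_mono hU le_rfl).trans hY) ?_ ?_
        · exact (key hX hWY hWX ((bk_mono le_rfl bk_comm_le).trans hc) U hU _).trans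
            (sup_le ((bk_mono h1 le_rfl).trans hWY) le_rfl)
        · rwa [add_comm, it_add] at h2

theorem it_finsup_le {V W S : AddSubgroup L} (hV : bk V S ≤ V) (hW : bk W S ≤ W)
    (hc : bk V (bk S S) ≤ W) {u : ℕ} (s : Finset (AddSubgroup L))
    (hs : ∀ y ∈ s, y ≤ S ∧ it ⊤ y u = ⊥) : it V (s.sup id) (s.card * u + 1) ≤ W := by
  classical
  induction s using Finset.induction_on with
  | empty => simp [it, bk_bot_right]
  | insert y s hy ih =>
    have h1 : s.sup id ≤ S := Finset.sup_le fun z hz => (hs z (Finset.mem_insert_of_mem hz)).1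
    have h2 := hs y (Finset.mem_insert_self y s)
    rw [Finset.sup_insert, Finset.card_insert_of_notMem hy, id,
      show (s.card + 1) * u + 1 = u + (s.card * u + 1) by ring]
    exact it_sup_le ((bk_mono le_rfl h2.1).trans hV) ((bk_mono le_rfl h1).trans hV)
      ((bk_mono le_rfl h2.1).trans hW) ((bk_mono le_rfl h1).trans hW)
      ((bk_mono le_rfl (bk_mono h2.1 h1)).trans hc) _ _ V le_rfl
      ((it_mono le_top le_rfl u).trans (h2.2.le.trans bot_le))
      (ih fun z hz => hs z (Finset.mem_insert_of_mem hz))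

/-- a solvable sum of boundedly many nilpotently acting pieces acts nilpotently -/
theorem it_eq_bot_of_levels {t u : ℕ} (s : ℕ) : ∀ S : ℕ → AddSubgroup L,
    (∀ i, ∃ Y : Finset (AddSubgroup L), Y.card ≤ t ∧ S i ≤ Y.sup id ∧
      ∀ y ∈ Y, y ≤ S i ∧ it ⊤ y u = ⊥) →
    (∀ i, bk (S i) (S i) ≤ S (i + 1)) → (∀ i, S (i + 1) ≤ S i) → S s = ⊥ →
    it ⊤ (S 0) ((t * u + 1) ^ s) = ⊥ := by
  induction s with
  | zero => intro S _ _ _ h; rw [h, pow_zero]; exact bk_bot_right
  | succ s ih =>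
    intro S h1 h2 h3 h4
    have h5 := ih (fun i => S (i + 1)) (fun i => h1 _) (fun i => h2 _) (fun i => h3 _) h4
    have h6 : ∀ r, bk (it ⊤ (S 1) r) (S 0) ≤ it ⊤ (S 1) r := by
      intro r
      induction r with
      | zero => exact le_top
      | succ r ih =>
        rw [it_succ]
        exact (bk_bk_le _ _ _).trans (sup_le (bk_mono ih le_rfl)
          (bk_mono le_rfl ((bk_mono (h3 0) le_rfl).trans (h2 0))))
    obtain ⟨Y, hY1, hY2, hY3⟩ := h1 0
    have h7 : ∀ r, it (it ⊤ (S 1) r) (S 0) (t * u + 1) ≤ it ⊤ (S 1) (r + 1) := by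
      intro r
      have := it_finsup_le (h6 r) (h6 (r + 1)) (by rw [it_succ]; exact bk_mono le_rfl (h2 0)) Y hY3
      obtain ⟨d, hd⟩ := Nat.exists_eq_add_of_le
        (show Y.card * u + 1 ≤ t * u + 1 from Nat.succ_le_succ (Nat.mul_le_mul_right _ hY1))
      rw [hd, it_add]
      exact (it_mono ((it_mono le_rfl hY2 _).trans this) le_rfl d).trans (it_le (h6 _) d)
    have h8 : ∀ r, it ⊤ (S 0) (r * (t * u + 1)) ≤ it ⊤ (S 1) r := by
      intro r
      induction r with
      | zero => simp [it]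
      | succ r ih => rw [Nat.succ_mul, it_add]; exact (it_mono ih le_rfl _).trans (h7 r)
    rw [pow_succ]
    exact eq_bot_iff.2 ((h8 _).trans h5.le)

/-- the derived series of a Lie ring -/
def dr (L : Type*) [LieRing L] : ℕ → AddSubgroup L
  | 0 => ⊤
  | n + 1 => bk (dr L n) (dr L n)

end Bk

section Kreknin

variable {L : Type*} [LieRing L] {n : ℕ} [NeZero n]

theorem lt_val {i l j : ZMod n} (hi : i ≠ 0) (e : i + l = j) (hl : j.val ≤ l.val) :
    j.val < i.val ∧ j.val < l.val := by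
  subst e
  have h1 := ZMod.val_pos.2 hi
  have h2 := ZMod.val_lt l
  have h3 := ZMod.val_lt i
  have h4 : n ≤ i.val + l.val := by
    by_contra! h
    have := ZMod.val_add_of_lt h
    omega
  have h5 := ZMod.val_add_of_le h4
  omega

omit [NeZero n] in
theorem gen_mono {s : Set (ZMod n)} {M M' : ZMod n → AddSubgroup L} (h : M ≤ M') :
    gen s M ≤ gen s M' := gen_le (br_gen_le _) fun j hj => (h j).trans (le_gen hj)

omit [NeZero n] in
theorem bk_gen_zero {s : Set (ZMod n)} {M : ZMod n → AddSubgroup L} (hM : br M M ≤ M)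
    (j : ZMod n) : bk (gen s M j) (M 0) ≤ gen s M j := by
  let T : ZMod n → AddSubgroup L := fun l => gen s M l ⊓ ⨅ y ∈ M 0, (gen s M l).comap (rb y)
  have hT : ∀ {l u}, u ∈ T l ↔ u ∈ gen s M l ∧ ∀ y ∈ M 0, ⁅u, y⁆ ∈ gen s M l := by simp [T]
  have : gen s M ≤ T := gen_le (br_le.2 fun i j a b ha hb => by
    obtain ⟨ha, ha'⟩ := hT.1 ha
    obtain ⟨hb, hb'⟩ := hT.1 hb
    refine hT.2 ⟨br_le.1 (br_gen_le s) _ _ _ _ ha hb, fun y hy => ?_⟩
    rw [lie_lie_right]
    exact add_mem (br_le.1 (br_gen_le s) _ _ _ _ (ha' y hy) hb)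
      (br_le.1 (br_gen_le s) _ _ _ _ ha (hb' y hy))) fun j hj b hb =>
    hT.2 ⟨le_gen hj hb, fun y hy => le_gen hj (by simpa using br_le.1 hM _ _ _ _ hb hy)⟩
  exact bk_le.2 fun a ha b hb => (hT.1 (this j ha)).2 b hb

/-- bound for the derived length -/
def kb (w : ℕ) : ℕ → ℕ
  | 0 => 0
  | k + 1 => w * (kb w k + 1) + kb w k

theorem der_le_gen' (w k : ℕ) : ∀ M : ZMod n → AddSubgroup L, br M M ≤ M →
    (∀ j, it (M j) (M 0) w = ⊥) → der (kb w k) M ≤ gen {j | k ≤ j.val} M := by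
  induction k with
  | zero => exact fun M _ _ j => le_gen (Nat.zero_le _)
  | succ k ih =>
    intro M hM h0
    have hsub : ∀ m j, it (der m M j) (der m M 0) w = ⊥ := fun m j =>
      eq_bot_iff.2 ((it_mono (der_le hM m j) (der_le hM m 0) w).trans (h0 j).le)
    rw [kb, der_add]
    refine (ih _ (br_der_le hM _) (hsub _)).trans (gen_le (br_gen_le _) fun j (hj : k ≤ j.val) => ?_)
    rcases hj.eq_or_lt with hj' | hj'
    swap
    · exact (der_le hM _ j).trans (le_gen hj')
    have step : ∀ m, der (m + (kb w k + 1)) M j ≤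
        gen {j | k + 1 ≤ j.val} M j ⊔ bk (der m M j) (M 0) := by
      intro m
      rw [der_add]
      have hM' := br_der_le hM m
      refine (br_mono (der_le hM' _) (ih _ hM' (hsub m)) j).trans
        (br_gen_le_of hM' _ fun i l hl e a ha b hb => ?_)
      rcases eq_or_ne i 0 with hi | hi
      · rw [hi, zero_add] at e
        rw [hi] at ha
        rw [e] at hb
        rw [← lie_skew]
        exact neg_mem (AddSubgroup.mem_sup_right (mem_bk hb (der_le hM m 0 ha)))
      obtain ⟨h1, h2⟩ := lt_val hi e (hj' ▸ hl)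
      rw [← hj'] at h1 h2
      refine AddSubgroup.mem_sup_left ?_
      rw [← e]
      exact br_le.1 (br_gen_le _) _ _ _ _
        (le_gen (s := {j : ZMod n | k + 1 ≤ j.val}) h1 (der_le hM m _ ha))
        (le_gen (s := {j : ZMod n | k + 1 ≤ j.val}) h2 (der_le hM m _ hb))
    have iter : ∀ r, der (r * (kb w k + 1)) M j ≤
        gen {j | k + 1 ≤ j.val} M j ⊔ it (M j) (M 0) r := by
      intro r
      induction r with
      | zero => simp [der, it]
      | succ r ihr =>
        rw [Nat.succ_mul, it_succ]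
        refine (step _).trans (sup_le le_sup_left ((bk_mono ihr le_rfl).trans
          (bk_sup_left.trans (sup_le_sup_right (bk_gen_zero hM j) _))))
    simpa [h0 j] using iter w

theorem der_eq_bot {w : ℕ} {M : ZMod n → AddSubgroup L} (hM : br M M ≤ M)
    (h0 : ∀ j, it (M j) (M 0) w = ⊥) : der (kb w n) M = ⊥ := by
  refine eq_bot_iff.2 ((der_le_gen' w n M hM h0).trans (gen_le ?_ ?_))
  · exact br_le.2 fun i j a b ha _ => by
      rw [AddSubgroup.mem_bot.1 ha, zero_lie]; exact zero_mem _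
  · exact fun j hj => absurd (ZMod.val_lt j) (not_lt.2 hj)

theorem dr_le_der {ι : Type*} [AddCommGroup ι] {E : ι → AddSubgroup L} (h : ⊤ ≤ ⨆ k, E k) :
    ∀ m, dr L m ≤ ⨆ k, der m E k
  | 0 => h
  | m + 1 => (bk_mono (dr_le_der h m) (dr_le_der h m)).trans (bk_iSup_left fun i =>
      bk_iSup_right fun j => bk_le.2 fun _ ha _ hb =>
        le_iSup (der (m + 1) E) (i + j) (lie_mem_br ha hb))

end Kreknin

theorem mem_of_smul {M : Type*} [AddCommGroup M] {p e : ℕ} (he : e.Coprime p) {x : M}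
    (hx : e • x = 0) {Z : AddSubgroup M} (h : p • x ∈ Z) : x ∈ Z := by
  obtain ⟨a, b, hab⟩ : IsCoprime (e : ℤ) (p : ℤ) := Nat.isCoprime_iff_coprime.2 he
  have : x = b • (p • x) := by
    conv_lhs => rw [← one_zsmul x, ← hab, add_zsmul, mul_zsmul, mul_zsmul, natCast_zsmul, hx]
    simp
  rw [this]; exact zsmul_mem h b

variable {p : ℕ} [hp : Fact p.Prime]

theorem eigen' {R L' : Type*} [CommRing R] [LieRing L'] [LieAlgebra R L'] {ω : R}
    (hω : ∑ i ∈ .range p, ω ^ i = 0) {Φ : End R L'} (h1 : ∀ x y, Φ ⁅x, y⁆ = ⁅Φ x, Φ y⁆)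
    (h2 : Φ ^ p = 1) {S : AddSubgroup L'} (h3 : ∀ x, (∑ j ∈ .range p, Φ ^ j) x ∈ S) {w : ℕ}
    (hw : it ⊤ S w = ⊥) {e : ℕ} (he : e.Coprime p) (hke : ∀ x : L', e • x = 0) :
    dr L' (kb w p) = ⊥ := by
  have hω' : ω ^ p = 1 := sub_eq_zero.1 (by rw [← mul_geom_sum, hω, mul_zero])
  let χ := AddChar.zmodChar p hω'
  have hχ : ∀ a : ZMod p, a ≠ 0 → ∑ i, χ (-i * a) = 0 := fun a ha =>
    (((Equiv.neg _).trans (Equiv.mulRight₀ a ha)).sum_comp χ).trans ((sum_zmod (ω ^ ·)).trans hω)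
  let E : ZMod p → AddSubgroup L' := fun i => (LinearMap.eqLocus Φ (χ i • 1)).toAddSubgroup
  have hE : br E E ≤ E := br_le.2 (by
    intro i j a b (ha : Φ a = χ i • a) (hb : Φ b = χ j • b)
    change Φ _ = χ _ • ⁅a, b⁆
    rw [h1, ha, hb, smul_lie, lie_smul, smul_smul, AddChar.map_add_eq_mul])
  have h0 : E 0 ≤ S := by
    intro a (ha : Φ a = χ 0 • a)
    rw [AddChar.map_zero_eq_one, one_smul] at ha
    refine mem_of_smul he (hke a) ?_
    have := h3 a
    rw [LinearMap.sum_apply,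
      Finset.sum_congr rfl fun j _ => (End.pow_apply Φ j a).trans (Function.iterate_fixed ha j)] at this
    simpa using this
  have h4 : ∀ a : ZMod p, Φ ^ (a + 1).val = Φ * Φ ^ a.val := fun a => by
    rw [ZMod.val_add, ← pow_eq_pow_mod _ h2, ZMod.val_one, pow_succ']
  have h5 : ∀ y, p • y ∈ ⨆ k, E k := fun y => by
    have : p • y = ∑ i : ZMod p, ∑ a : ZMod p, χ (-i * a) • (Φ ^ a.val) y := by
      rw [Finset.sum_comm, Finset.sum_eq_single 0
        (fun a _ ha => by rw [← Finset.sum_smul, hχ a ha, zero_smul]) (by simp)]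
      simp
    rw [this]
    refine sum_mem fun i _ => le_iSup E i (?_ : Φ _ = χ i • _)
    rw [map_sum, End.one_apply, Finset.smul_sum, ← Equiv.sum_comp (Equiv.addRight (1 : ZMod p))
      fun a => χ i • χ (-i * a) • (Φ ^ a.val) y]
    refine Finset.sum_congr rfl fun a _ => ?_
    rw [Equiv.coe_addRight, h4, smul_smul, ← AddChar.map_add_eq_mul, map_smul, End.mul_apply]
    congr 2
    ring
  have h6 := dr_le_der (E := E) (fun y _ => mem_of_smul he (hke y) (h5 y)) (kb w p)
  rw [der_eq_bot hE fun j => eq_bot_iff.2 ((it_mono le_top h0 w).trans hw.le)] at h6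
  simpa using h6

/-- extension of scalars of an additive subgroup -/
def ex (R : Type*) [CommRing R] {L : Type*} [LieRing L] (U : AddSubgroup L) :
    AddSubgroup (R ⊗[ℤ] L) := .closure {x | ∃ r : R, ∃ u ∈ U, r ⊗ₜ u = x}

theorem bk_ex {R : Type*} [CommRing R] {L : Type*} [LieRing L] (U V : AddSubgroup L) :
    bk (ex R U) (ex R V) ≤ ex R (bk U V) := by
  refine bk_le.2 fun a ha b hb => ?_
  refine (AddSubgroup.closure_le ((ex R (bk U V)).comap (rb b))).2 ?_ ha
  rintro _ ⟨r, u, hu, rfl⟩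
  refine (AddSubgroup.closure_le ((ex R (bk U V)).comap (lb (r ⊗ₜ[ℤ] u)))).2 ?_ hb
  rintro _ ⟨s, v, hv, rfl⟩
  exact AddSubgroup.subset_closure ⟨r * s, _, mem_bk hu hv, by simp⟩

theorem dr_eq_bot {L : Type*} [LieRing L] {φ : End ℤ L} (h1 : ∀ x y, φ ⁅x, y⁆ = ⁅φ x, φ y⁆)
    (h2 : φ ^ p = 1) {S : AddSubgroup L} (h3 : ∀ x, (∑ j ∈ .range p, φ ^ j) x ∈ S) {w : ℕ}
    (hw : it ⊤ S w = ⊥) {e : ℕ} (he : e.Coprime p) (hke : ∀ x : L, e • x = 0) :
    dr L (kb w p) = ⊥ := by
  set P : ℤ[X] := ∑ i ∈ .range p, X ^ i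
  have hP : P.Monic := monic_geom_sum_X hp.1.ne_zero
  have hit : ∀ r, it ⊤ (ex (AdjoinRoot P) S) r ≤ ex (AdjoinRoot P) (it ⊤ S r) := by
    intro r
    induction r with
    | zero =>
      intro x _
      induction x with
      | zero => exact zero_mem _
      | add a b ha hb => exact add_mem (ha trivial) (hb trivial)
      | tmul r x => exact AddSubgroup.subset_closure ⟨r, x, trivial, rfl⟩
    | succ r ih => rw [it_succ, it_succ]; exact (bk_mono ih le_rfl).trans (bk_ex _ _)
  have := eigen' (p := p) (ω := AdjoinRoot.root P) (by simpa [P] using AdjoinRoot.mk_self (f := P))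
    (Φ := φ.baseChange (AdjoinRoot P)) (fun x y => by
      induction x with
      | zero => simp
      | add a b ha hb => simp [ha, hb]
      | tmul r x =>
        induction y with
        | zero => simp
        | add a b ha hb => simp [ha, hb]
        | tmul s y => simp [h1])
    (by rw [← LinearMap.baseChange_pow, h2, LinearMap.baseChange_one])
    (S := ex (AdjoinRoot P) S) (fun x => by
      induction x with
      | zero => simp
      | add a b ha hb => rw [map_add]; exact add_mem ha hb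
      | tmul r x =>
        simp_rw [LinearMap.sum_apply, ← LinearMap.baseChange_pow, LinearMap.baseChange_tmul,
          ← tmul_sum, ← LinearMap.sum_apply]
        exact AddSubgroup.subset_closure ⟨r, _, h3 x, rfl⟩) (w := w)
    (eq_bot_iff.2 ((hit w).trans (by
      rw [hw]
      refine (AddSubgroup.closure_le _).2 ?_
      rintro _ ⟨r, u, hu, rfl⟩
      rw [AddSubgroup.mem_bot.1 hu]; simp))) he (fun x => by
      induction x with
      | zero => simp
      | add a b ha hb => rw [smul_add, ha, hb, add_zero]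
      | tmul r x =>
        exact (map_nsmul (TensorProduct.mk ℤ _ L r) e _).symm.trans (by rw [hke, map_zero]))
  have h4 : (lcoeff ℤ 0 ∘ₗ AdjoinRoot.modByMonicHom hP) 1 = 1 := by
    rw [LinearMap.comp_apply, ← map_one (AdjoinRoot.mk P), AdjoinRoot.modByMonicHom_mk,
      (modByMonic_eq_self_iff hP).2]
    · simp
    · rw [degree_one, ← natDegree_pos_iff_degree_pos, hP.natDegree_pos]
      intro h
      have := congrArg (eval 1) h
      simp only [P, eval_geom_sum, eval_X, one_geom_sum, eval_one, Nat.cast_eq_one] at this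
      exact hp.1.ne_one this
  have h5 : ∀ m, dr L m ≤ (dr (AdjoinRoot P ⊗[ℤ] L) m).comap
      (TensorProduct.mk ℤ (AdjoinRoot P) L 1).toAddMonoidHom := by
    intro m
    induction m with
    | zero => exact fun _ _ => trivial
    | succ m ih =>
      refine bk_le.2 fun a ha b hb => ?_
      have := mem_bk (AddSubgroup.mem_comap.1 (ih ha)) (AddSubgroup.mem_comap.1 (ih hb))
      simpa [dr] using this
  refine eq_bot_iff.2 fun x hx => ?_
  have h6 := h5 _ hx
  rw [this, AddSubgroup.mem_comap, AddSubgroup.mem_bot] at h6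
  simpa [h4] using congrArg
    (TensorProduct.lid ℤ L ∘ (lcoeff ℤ 0 ∘ₗ AdjoinRoot.modByMonicHom hP).rTensor L) h6

end Cfsg.Lib.Lie.Sh
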